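import Mathlib
import Cfsg.Agent.S0133
import Cfsg.Agent.S0134
import Cfsg.Agent.S0154
import Cfsg.Agent.H81.Counting
import Cfsg.Agent.H82.Fin

/-!
# Automorphism orbits: counting lemmas

The degree-equation bound `p * k(G) ≤ |G|` when `(p + 1) * [G : G'] ≤ |G|`, the comparison of
automorphism orbits with conjugacy classes, and the class-size formula for the number of classes
of an equivalence relation.
-/

set_option autoImplicit false
open Cfsg

namespace Cfsg.Agent.H77.AutOrb

/-- The degree equation bound: if `(p + 1) * [G : G'] ≤ |G|` (p the least prime divisor) then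
`p * k(G) ≤ |G|`. -/
theorem card_conjClasses_mul_le {G : Type*} [Group G] [Finite G]
    (hG' : ((Nat.card G).minFac + 1) * (commutator G).index ≤ Nat.card G) :
    (Nat.card G).minFac * Nat.card (ConjClasses G) ≤ Nat.card G := by
  classical
  have hfin : Finite (IrrCharacter G) := H82.irr_finite G
  have := Fintype.ofFinite (IrrCharacter G)
  choose d hd using fun χ : IrrCharacter G => H81.irr_degree_dvd χ
  have hsq : (Nat.card G : ℕ) = ∑ χ : IrrCharacter G, d χ ^ 2 := by
    have h := S0134.result (G := G)
    rw [finsum_eq_sum_of_fintype] at h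
    have : ((∑ χ : IrrCharacter G, d χ ^ 2 : ℕ) : ℂ) = (Nat.card G : ℂ) := by
      rw [← h]; push_cast
      refine Finset.sum_congr rfl fun χ _ => ?_
      rw [(hd χ).2.2]
    exact_mod_cast this.symm
  have hL : (Finset.univ.filter (fun χ : IrrCharacter G => d χ = 1)).card =
      (commutator G).index := by
    rw [← S0154.result (G := G), Nat.card_eq_fintype_card, Fintype.card_subtype]
    congr 1
    ext χ
    simp only [Finset.mem_filter, Finset.mem_univ, true_and]
    rw [(hd χ).2.2]
    exact_mod_cast Iff.rfl
  have hk : Nat.card (ConjClasses G) = Fintype.card (IrrCharacter G) := by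
    rw [← S0133.result, Nat.card_eq_fintype_card]
  have hge : ∀ χ : IrrCharacter G, d χ ≠ 1 → (Nat.card G).minFac ≤ d χ := by
    intro χ h1
    exact Nat.minFac_le_of_dvd (by have := (hd χ).1; omega) (hd χ).2.1
  set p := (Nat.card G).minFac with hp
  set L := (commutator G).index with hLdef
  set k := Nat.card (ConjClasses G) with hkdef
  have hsplit : ∑ χ : IrrCharacter G, d χ ^ 2 =
      ∑ χ ∈ Finset.univ.filter (fun χ : IrrCharacter G => d χ = 1), d χ ^ 2 +
      ∑ χ ∈ Finset.univ.filter (fun χ : IrrCharacter G => ¬ d χ = 1), d χ ^ 2 :=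
    (Finset.sum_filter_add_sum_filter_not Finset.univ _ _).symm
  have h1 : ∑ χ ∈ Finset.univ.filter (fun χ : IrrCharacter G => d χ = 1), d χ ^ 2 = L := by
    rw [← hL, Finset.card_eq_sum_ones]
    refine Finset.sum_congr rfl fun χ hχ => ?_
    rw [(Finset.mem_filter.mp hχ).2]; norm_num
  have hcardnot : (Finset.univ.filter (fun χ : IrrCharacter G => ¬ d χ = 1)).card + L = k := by
    rw [← hL, hk, add_comm, ← Finset.card_univ]
    exact Finset.card_filter_add_card_filter_not (fun χ : IrrCharacter G => d χ = 1)
  have h2 : (Finset.univ.filter (fun χ : IrrCharacter G => ¬ d χ = 1)).card * p ^ 2 ≤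
      ∑ χ ∈ Finset.univ.filter (fun χ : IrrCharacter G => ¬ d χ = 1), d χ ^ 2 := by
    rw [Finset.card_eq_sum_ones, Finset.sum_mul]
    refine Finset.sum_le_sum fun χ hχ => ?_
    rw [one_mul]
    exact Nat.pow_le_pow_left (hge χ (Finset.mem_filter.mp hχ).2) 2
  set n := (Finset.univ.filter (fun χ : IrrCharacter G => ¬ d χ = 1)).card with hn
  have hg : L + n * p ^ 2 ≤ Nat.card G := by
    rw [hsq, hsplit, h1]; omega
  have hp0 : 0 < p := Nat.minFac_pos _
  rw [← hcardnot]
  have e : p ^ 2 * (p * (n + L)) ≤ p ^ 2 * Nat.card G := by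
    obtain ⟨q, hq⟩ : ∃ q, p = q + 1 := ⟨p - 1, by omega⟩
    rw [hq] at hG' hg ⊢
    nlinarith [Nat.mul_le_mul_left (q + 1) hg, Nat.mul_le_mul_left (q * (q + 1)) hG']
  exact Nat.le_of_mul_le_mul_left e (by positivity)

/-- Automorphism orbits are unions of conjugacy classes. -/
theorem card_orbits_le_card_conjClasses {G : Type*} [Group G] [Finite G] :
    Nat.card (MulAction.orbitRel.Quotient (MulAut G) G) ≤ Nat.card (ConjClasses G) := by
  let f : ConjClasses G → MulAction.orbitRel.Quotient (MulAut G) G :=
    Quotient.lift (fun g => (Quotient.mk'' g : MulAction.orbitRel.Quotient (MulAut G) G)) (by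
      intro a b hab
      apply Quotient.sound'
      rw [MulAction.orbitRel_apply]
      obtain ⟨c, hc⟩ := isConj_iff.mp hab
      refine ⟨(MulAut.conj c)⁻¹, ?_⟩
      rw [← hc]
      simp only [MulAut.smul_def, MulAut.conj_inv_apply]
      group)
  refine Nat.card_le_card_of_surjective f ?_
  intro q
  induction q using Quotient.inductionOn' with
  | h g => exact ⟨ConjClasses.mk g, rfl⟩

/-- The number of classes of an equivalence relation as a sum of reciprocals of class sizes. -/
theorem card_quotient_eq_sum {X : Type*} [Fintype X] (s : Setoid X) :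
    (Nat.card (Quotient s) : ℚ) = ∑ x : X, (1 : ℚ) / (Nat.card {y // s.r y x} : ℚ) := by
  classical
  have : Fintype (Quotient s) := Fintype.ofFinite _
  rw [← Finset.sum_fiberwise Finset.univ (fun x : X => (Quotient.mk s x)) _]
  rw [Nat.card_eq_fintype_card, Finset.card_univ.symm, Finset.card_eq_sum_ones]
  push_cast
  refine Finset.sum_congr rfl fun q _ => ?_
  induction q using Quotient.inductionOn with
  | h x₀ =>
    have hcong : ∀ x ∈ Finset.univ.filter (fun x : X => Quotient.mk s x = Quotient.mk s x₀),
        (1 : ℚ) / (Nat.card {y // s.r y x} : ℚ) = 1 / (Nat.card {y // s.r y x₀} : ℚ) := by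
      intro x hx
      have hx' : s.r x x₀ := Quotient.exact (Finset.mem_filter.mp hx).2
      congr 2
      apply Nat.card_congr
      exact Equiv.subtypeEquivRight (fun y => ⟨fun h => s.trans h hx', fun h => s.trans h (s.symm hx')⟩)
    rw [Finset.sum_congr rfl hcong, Finset.sum_const, nsmul_eq_mul]
    have hcard : (Finset.univ.filter (fun x : X => Quotient.mk s x = Quotient.mk s x₀)).card =
        Nat.card {y // s.r y x₀} := by
      rw [Nat.card_eq_fintype_card, Fintype.card_subtype]
      congr 1
      ext y
      simp only [Finset.mem_filter, Finset.mem_univ, true_and]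
      exact ⟨fun h => Quotient.exact h, fun h => Quotient.sound h⟩
    rw [hcard]
    have hpos : 0 < Nat.card {y // s.r y x₀} := by
      have : Nonempty {y // s.r y x₀} := ⟨⟨x₀, s.refl x₀⟩⟩
      exact Nat.card_pos
    field_simp

/-- A proper inclusion of subgroups multiplies the order by at least the least prime divisor. -/
theorem minFac_mul_card_le {G : Type*} [Group G] [Finite G] {H K : Subgroup G} (h : H < K) :
    (Nat.card G).minFac * Nat.card H ≤ Nat.card K := by
  have h1 : Nat.card H * H.relIndex K = Nat.card K := by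
    have := Subgroup.relIndex_mul_relIndex ⊥ H K bot_le h.le
    rwa [Subgroup.relIndex_bot_left, Subgroup.relIndex_bot_left] at this
  have h2 : H.relIndex K ≠ 1 := by
    rw [Ne, Subgroup.relIndex_eq_one]; exact not_le_of_gt h
  have h0 : H.relIndex K ≠ 0 := by
    intro h0; rw [h0, mul_zero] at h1
    exact (Nat.card_pos (α := K)).ne' h1.symm
  have h3 : H.relIndex K ∣ Nat.card G :=
    (Subgroup.relIndex_dvd_card H K).trans (Subgroup.card_subgroup_dvd_card K)
  have h4 : (Nat.card G).minFac ≤ H.relIndex K := Nat.minFac_le_of_dvd (by omega) h3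
  calc (Nat.card G).minFac * Nat.card H ≤ H.relIndex K * Nat.card H := Nat.mul_le_mul_right _ h4
    _ = Nat.card K := by rw [mul_comm, h1]

end Cfsg.Agent.H77.AutOrb
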