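import Mathlib

/-!
# Automorphism orbits: groups with central commutators and the twist automorphism

Commutator calculus in groups whose commutators are central, and the automorphism
`g ↦ g * u ^ ℓ(g) * c ^ (-s * C(ℓ(g), 2))` attached to a homomorphism `ℓ : G → ℤ/p`.
-/

set_option autoImplicit false

namespace Cfsg.Agent.H77.AutOrb

open scoped commutatorElement

section class2
variable {G : Type*} [Group G]

theorem comm_mul_left (hcen : ∀ a b : G, ⁅a, b⁆ ∈ Subgroup.center G) (g h u : G) :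
    ⁅g * h, u⁆ = ⁅g, u⁆ * ⁅h, u⁆ := by
  have hc := Subgroup.mem_center_iff.mp (hcen h u)
  have e1 : ⁅g * h, u⁆ = g * ⁅h, u⁆ * u * g⁻¹ * u⁻¹ := by
    simp only [commutatorElement_def]; group
  have e2 : ⁅g, u⁆ * ⁅h, u⁆ = ⁅h, u⁆ * g * u * g⁻¹ * u⁻¹ := by
    rw [hc ⁅g, u⁆]; simp only [commutatorElement_def]; group
  rw [e1, e2, hc g]

/-- `g ↦ ⁅g, u⁆` as a homomorphism into the commutator subgroup. -/
noncomputable def comHom (hcen : ∀ a b : G, ⁅a, b⁆ ∈ Subgroup.center G) (u : G) :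
    G →* ↥(commutator G) where
  toFun g := ⟨⁅g, u⁆, by
    rw [commutator_def]
    exact Subgroup.commutator_mem_commutator (Subgroup.mem_top g) (Subgroup.mem_top u)⟩
  map_one' := Subtype.ext (commutatorElement_one_left u)
  map_mul' g h := Subtype.ext (comm_mul_left hcen g h u)

theorem comHom_coe (hcen : ∀ a b : G, ⁅a, b⁆ ∈ Subgroup.center G) (u g : G) :
    ((comHom hcen u g : ↥(commutator G)) : G) = ⁅g, u⁆ := rfl

theorem comm_pow_left (hcen : ∀ a b : G, ⁅a, b⁆ ∈ Subgroup.center G) (g u : G) (n : ℕ) :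
    ⁅g ^ n, u⁆ = ⁅g, u⁆ ^ n := by
  exact (congrArg Subtype.val (map_pow (comHom hcen u) g n)).trans (Subgroup.coe_pow _ _ n)

theorem comm_mul_right (hcen : ∀ a b : G, ⁅a, b⁆ ∈ Subgroup.center G) (g u v : G) :
    ⁅g, u * v⁆ = ⁅g, u⁆ * ⁅g, v⁆ := by
  have hc := Subgroup.mem_center_iff.mp (hcen g v)
  rw [← commutatorElement_inv (u * v) g, comm_mul_left hcen, mul_inv_rev, commutatorElement_inv,
    commutatorElement_inv]
  exact (hc ⁅g, u⁆).symm

theorem comm_pow_right (hcen : ∀ a b : G, ⁅a, b⁆ ∈ Subgroup.center G) (g u : G) (n : ℕ) :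
    ⁅g, u ^ n⁆ = ⁅g, u⁆ ^ n := by
  induction n with
  | zero => simp
  | succ k ih => rw [pow_succ, comm_mul_right hcen, ih, pow_succ]

theorem conj_eq_comm_mul (g u : G) : g * u * g⁻¹ = ⁅g, u⁆ * u := by
  simp only [commutatorElement_def]; group

/-- The power of a product in a group whose commutators are central. -/
theorem mul_pow_class2 (hcen : ∀ a b : G, ⁅a, b⁆ ∈ Subgroup.center G) (g h : G) (n : ℕ) :
    (g * h) ^ n = g ^ n * h ^ n * ⁅h, g⁆ ^ (n.choose 2) := by
  have hzc : ∀ x : G, Commute ⁅h, g⁆ x := fun x =>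
    (Subgroup.mem_center_iff.mp (hcen h g) x).symm
  induction n with
  | zero => simp
  | succ n ih =>
    have e0 : h ^ n * g = ⁅h, g⁆ ^ n * g * h ^ n := by
      rw [← comm_pow_left hcen h g n]; simp only [commutatorElement_def]; group
    have e1 := ((hzc (g * h)).pow_left (n.choose 2)).eq
    have e2 := ((hzc (g ^ n)).pow_left n).eq
    have e3 := ((hzc (g ^ n * (g * h ^ n * h))).pow_left n).eq
    calc (g * h) ^ (n + 1) = g ^ n * h ^ n * (⁅h, g⁆ ^ (n.choose 2) * (g * h)) := by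
          rw [pow_succ, ih]; group
      _ = g ^ n * (h ^ n * g) * h * ⁅h, g⁆ ^ (n.choose 2) := by rw [e1]; group
      _ = (⁅h, g⁆ ^ n * g ^ n) * (g * h ^ n * h) * ⁅h, g⁆ ^ (n.choose 2) := by
          rw [e0, e2]; group
      _ = g ^ n * (g * h ^ n * h) * (⁅h, g⁆ ^ n * ⁅h, g⁆ ^ (n.choose 2)) := by
          rw [mul_assoc (⁅h, g⁆ ^ n), e3]; group
      _ = g ^ (n + 1) * h ^ (n + 1) * ⁅h, g⁆ ^ ((n + 1).choose 2) := by
          rw [← pow_add, Nat.choose_succ_succ' n 1, Nat.choose_one_right, pow_succ, pow_succ]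
          group

end class2

section twist
variable {G : Type*} [Group G]

theorem choose_two_add (m n : ℕ) : (m + n).choose 2 = m.choose 2 + n.choose 2 + m * n := by
  induction n with
  | zero => simp
  | succ k ih =>
    rw [← add_assoc, Nat.choose_succ_succ' (m + k) 1, Nat.choose_succ_succ' k 1, ih]
    simp only [Nat.choose_one_right]; ring

/-- the correction word -/
def tw (u c : G) (s n : ℕ) : G := u ^ n * (c ^ (s * n.choose 2))⁻¹

theorem tw_zero (u c : G) (s : ℕ) : tw u c s 0 = 1 := by simp [tw]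

theorem tw_one (u c : G) (s : ℕ) : tw u c s 1 = u := by simp [tw]

theorem tw_add (u c : G) (hc : ∀ x : G, Commute c x) (s m n : ℕ) :
    tw u c s (m + n) = tw u c s m * tw u c s n * (c ^ (s * (m * n)))⁻¹ := by
  unfold tw
  have h1 := ((hc (u ^ n)).pow_left (s * m.choose 2)).inv_left.eq
  calc u ^ (m + n) * (c ^ (s * (m + n).choose 2))⁻¹
      = u ^ m * (u ^ n * (c ^ (s * m.choose 2))⁻¹) * (c ^ (s * n.choose 2))⁻¹ *
          (c ^ (s * (m * n)))⁻¹ := by
        rw [choose_two_add, pow_add, mul_add, mul_add, pow_add, pow_add]; group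
    _ = u ^ m * (c ^ (s * m.choose 2))⁻¹ * (u ^ n * (c ^ (s * n.choose 2))⁻¹) *
          (c ^ (s * (m * n)))⁻¹ := by
        rw [← h1]; group

theorem tw_add_period (u c : G) (hc : ∀ x : G, Commute c x) (s p : ℕ) (hcp : c ^ p = 1)
    (hup : u ^ p = c ^ (s * p.choose 2)) (n : ℕ) : tw u c s (n + p) = tw u c s n := by
  rw [tw_add u c hc]
  have h1 : tw u c s p = 1 := by unfold tw; rw [hup]; group
  have h2 : c ^ (s * (n * p)) = 1 := by
    rw [show s * (n * p) = p * (s * n) by ring, pow_mul, hcp, one_pow]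
  rw [h1, h2]; group

theorem tw_mod (u c : G) (hc : ∀ x : G, Commute c x) (s p : ℕ) (hcp : c ^ p = 1)
    (hup : u ^ p = c ^ (s * p.choose 2)) (n : ℕ) : tw u c s (n % p) = tw u c s n := by
  have key : ∀ k r : ℕ, tw u c s (r + p * k) = tw u c s r := by
    intro k
    induction k with
    | zero => intro r; simp
    | succ k ih =>
      intro r
      rw [show r + p * (k + 1) = (r + p * k) + p by ring, tw_add_period u c hc s p hcp hup, ih]
  conv_rhs => rw [← Nat.mod_add_div n p]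
  rw [key]

theorem u_mul_comm (u c : G) (hc : ∀ x : G, Commute c x) (e : ℕ) (h : G)
    (hκ : h * u * h⁻¹ * u⁻¹ = c ^ e) : u * h = h * u * (c ^ e)⁻¹ := by
  have e1 : h * u = c ^ e * (u * h) := by rw [← hκ]; group
  have e2 := ((hc (h * u)).pow_left e).inv_left.eq
  calc u * h = (c ^ e)⁻¹ * (h * u) := by rw [e1]; group
    _ = h * u * (c ^ e)⁻¹ := e2

theorem u_pow_mul_comm (u c : G) (hc : ∀ x : G, Commute c x) (e : ℕ) (h : G)
    (hκ : h * u * h⁻¹ * u⁻¹ = c ^ e) (m : ℕ) : u ^ m * h = h * u ^ m * (c ^ (e * m))⁻¹ := by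
  induction m with
  | zero => simp
  | succ m ih =>
    have e1 := u_mul_comm u c hc e h hκ
    have e2 := ((hc u).pow_left (e * m)).inv_left.eq
    calc u ^ (m + 1) * h = u ^ m * (u * h) := by rw [pow_succ]; group
      _ = (u ^ m * h) * u * (c ^ e)⁻¹ := by rw [e1]; group
      _ = h * u ^ m * ((c ^ (e * m))⁻¹ * u) * (c ^ e)⁻¹ := by rw [ih]; group
      _ = h * u ^ (m + 1) * (c ^ (e * (m + 1)))⁻¹ := by
          rw [e2, mul_add, pow_add, pow_succ, mul_one]; group

theorem tw_mul_comm (u c : G) (hc : ∀ x : G, Commute c x) (s e : ℕ) (h : G)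
    (hκ : h * u * h⁻¹ * u⁻¹ = c ^ e) (m : ℕ) :
    tw u c s m * h = h * tw u c s m * (c ^ (e * m))⁻¹ := by
  unfold tw
  have e1 := ((hc h).pow_left (s * m.choose 2)).inv_left.eq
  have e2 := u_pow_mul_comm u c hc e h hκ m
  have e3 := ((hc ((c ^ (e * m))⁻¹)).pow_left (s * m.choose 2)).inv_left.eq
  calc u ^ m * (c ^ (s * m.choose 2))⁻¹ * h = (u ^ m * h) * (c ^ (s * m.choose 2))⁻¹ := by
        rw [mul_assoc, e1]; group
    _ = h * u ^ m * ((c ^ (e * m))⁻¹ * (c ^ (s * m.choose 2))⁻¹) := by rw [e2]; group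
    _ = h * (u ^ m * (c ^ (s * m.choose 2))⁻¹) * (c ^ (e * m))⁻¹ := by rw [← e3]; group

end twist

section twistAut
variable {G : Type*} [Group G] {p : ℕ} [Fact p.Prime]

/-- The twisted endomorphism `g ↦ g * u ^ ℓ(g) * c ^ (-s * C(ℓ(g), 2))`. -/
noncomputable def twistHom (u c : G) (s : ℕ) (lam : G →* Multiplicative (ZMod p))
    (hc : ∀ x : G, Commute c x) (hcp : c ^ p = 1)
    (hκ : ∀ h : G, h * u * h⁻¹ * u⁻¹ = c ^ (s * (Multiplicative.toAdd (lam h)).val))
    (hup : u ^ p = c ^ (s * p.choose 2)) : G →* G where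
  toFun g := g * tw u c s (Multiplicative.toAdd (lam g)).val
  map_one' := by simp [tw]
  map_mul' g h := by
    have hval : (Multiplicative.toAdd (lam (g * h))).val =
        ((Multiplicative.toAdd (lam g)).val + (Multiplicative.toAdd (lam h)).val) % p := by
      rw [map_mul, toAdd_mul, ZMod.val_add]
    rw [hval, tw_mod u c hc s p hcp hup, tw_add u c hc]
    have e1 := tw_mul_comm u c hc s _ h (hκ h) (Multiplicative.toAdd (lam g)).val
    set m := (Multiplicative.toAdd (lam g)).val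
    set n := (Multiplicative.toAdd (lam h)).val
    have e2 := ((hc (tw u c s n)).pow_left (s * n * m)).inv_left.eq
    calc g * h * (tw u c s m * tw u c s n * (c ^ (s * (m * n)))⁻¹)
        = g * h * tw u c s m * (tw u c s n * (c ^ (s * n * m))⁻¹) := by
          rw [show s * (m * n) = s * n * m by ring]; group
      _ = g * (h * tw u c s m * (c ^ (s * n * m))⁻¹) * tw u c s n := by rw [← e2]; group
      _ = g * tw u c s m * (h * tw u c s n) := by rw [← e1]; group

theorem twistHom_apply (u c : G) (s : ℕ) (lam : G →* Multiplicative (ZMod p))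
    (hc : ∀ x : G, Commute c x) (hcp : c ^ p = 1)
    (hκ : ∀ h : G, h * u * h⁻¹ * u⁻¹ = c ^ (s * (Multiplicative.toAdd (lam h)).val))
    (hup : u ^ p = c ^ (s * p.choose 2)) (g : G) :
    twistHom u c s lam hc hcp hκ hup g = g * tw u c s (Multiplicative.toAdd (lam g)).val := rfl

theorem lam_twistHom (u c : G) (s : ℕ) (lam : G →* Multiplicative (ZMod p))
    (hc : ∀ x : G, Commute c x) (hcp : c ^ p = 1)
    (hκ : ∀ h : G, h * u * h⁻¹ * u⁻¹ = c ^ (s * (Multiplicative.toAdd (lam h)).val))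
    (hup : u ^ p = c ^ (s * p.choose 2)) (hlu : lam u = 1) (hlc : lam c = 1) (g : G) :
    lam (twistHom u c s lam hc hcp hκ hup g) = lam g := by
  rw [twistHom_apply]
  simp [tw, map_mul, map_pow, map_inv, hlu, hlc]

theorem twistHom_injective (u c : G) (s : ℕ) (lam : G →* Multiplicative (ZMod p))
    (hc : ∀ x : G, Commute c x) (hcp : c ^ p = 1)
    (hκ : ∀ h : G, h * u * h⁻¹ * u⁻¹ = c ^ (s * (Multiplicative.toAdd (lam h)).val))
    (hup : u ^ p = c ^ (s * p.choose 2)) (hlu : lam u = 1) (hlc : lam c = 1) :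
    Function.Injective (twistHom u c s lam hc hcp hκ hup) := by
  rw [injective_iff_map_eq_one]
  intro g hg
  have h1 : lam g = 1 := by
    rw [← lam_twistHom u c s lam hc hcp hκ hup hlu hlc g, hg, map_one]
  have h2 : (Multiplicative.toAdd (lam g)).val = 0 := by rw [h1]; simp
  rw [twistHom_apply, h2, tw_zero, mul_one] at hg
  exact hg

/-- The twist as an automorphism. -/
noncomputable def twistAut [Finite G] (u c : G) (s : ℕ) (lam : G →* Multiplicative (ZMod p))
    (hc : ∀ x : G, Commute c x) (hcp : c ^ p = 1)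
    (hκ : ∀ h : G, h * u * h⁻¹ * u⁻¹ = c ^ (s * (Multiplicative.toAdd (lam h)).val))
    (hup : u ^ p = c ^ (s * p.choose 2)) (hlu : lam u = 1) (hlc : lam c = 1) : MulAut G :=
  MulEquiv.ofBijective (twistHom u c s lam hc hcp hκ hup)
    ⟨twistHom_injective u c s lam hc hcp hκ hup hlu hlc,
      Finite.injective_iff_surjective.mp (twistHom_injective u c s lam hc hcp hκ hup hlu hlc)⟩

theorem twistAut_apply [Finite G] (u c : G) (s : ℕ) (lam : G →* Multiplicative (ZMod p))
    (hc : ∀ x : G, Commute c x) (hcp : c ^ p = 1)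
    (hκ : ∀ h : G, h * u * h⁻¹ * u⁻¹ = c ^ (s * (Multiplicative.toAdd (lam h)).val))
    (hup : u ^ p = c ^ (s * p.choose 2)) (hlu : lam u = 1) (hlc : lam c = 1) (g : G)
    (hg : lam g = Multiplicative.ofAdd 1) :
    twistAut u c s lam hc hcp hκ hup hlu hlc g = g * u := by
  show twistHom u c s lam hc hcp hκ hup g = g * u
  rw [twistHom_apply, hg]
  have : (Multiplicative.toAdd (Multiplicative.ofAdd (1 : ZMod p))).val = 1 := by
    rw [toAdd_ofAdd]; exact ZMod.val_one p
  rw [this, tw_one]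

end twistAut

end Cfsg.Agent.H77.AutOrb
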