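import Mathlib
import Cfsg.Agent.H77.AutOrbA
import Cfsg.Agent.H77.AutOrbC

/-!
# Automorphism orbits: the case of a commutator subgroup of least prime order

If `|G'| = p` is the least prime divisor of `|G|`, then `G' ≤ Z(G)`, and there is a "twist"
automorphism moving the elements outside a maximal subgroup, which gives the bound
`|G| / p` on the number of automorphism orbits.
-/

set_option autoImplicit false

namespace Cfsg.Agent.H77.AutOrb

open scoped commutatorElement

/-- If the commutator subgroup has order the least prime divisor of `|G|`, it is central. -/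
theorem commutator_le_center_of_card {G : Type*} [Group G] [Finite G]
    (hcard : Nat.card (commutator G) = (Nat.card G).minFac) :
    commutator G ≤ Subgroup.center G := by
  intro d hd
  by_cases hd1 : d = 1
  · rw [hd1]; exact one_mem _
  have hsub : MulAction.orbit (ConjAct G) d ⊆ ((commutator G : Set G) \ {1}) := by
    rintro _ ⟨g, rfl⟩
    refine ⟨?_, ?_⟩
    · show g • d ∈ commutator G
      rw [ConjAct.smul_def]
      exact (inferInstance : (commutator G).Normal).conj_mem d hd _
    · rw [Set.mem_singleton_iff]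
      show ¬ (g • d = 1)
      rw [ConjAct.smul_def]
      intro h
      apply hd1
      have : d = (ConjAct.ofConjAct g)⁻¹ * (ConjAct.ofConjAct g * d * (ConjAct.ofConjAct g)⁻¹) *
          ConjAct.ofConjAct g := by group
      rw [this, h]; group
  have hlt : (MulAction.orbit (ConjAct G) d).ncard < (Nat.card G).minFac := by
    have h1 : (MulAction.orbit (ConjAct G) d).ncard ≤ ((commutator G : Set G) \ {1}).ncard :=
      Set.ncard_le_ncard hsub (Set.toFinite _)
    have h2 : ((commutator G : Set G) \ {1}).ncard = (commutator G : Set G).ncard - 1 :=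
      Set.ncard_sdiff_singleton_of_mem (one_mem _)
    have h3 : (commutator G : Set G).ncard = (Nat.card G).minFac := by
      rw [← hcard]; exact (Nat.card_coe_set_eq _).symm
    have h4 : 0 < (Nat.card G).minFac := Nat.minFac_pos _
    omega
  have : Finite (ConjAct G) := ‹Finite G›
  have hidx : (MulAction.stabilizer (ConjAct G) d).index = 1 := by
    by_contra hne
    have hdvd : (MulAction.stabilizer (ConjAct G) d).index ∣ Nat.card G :=
      Subgroup.index_dvd_card _
    have h0 : (MulAction.stabilizer (ConjAct G) d).index ≠ 0 := Subgroup.index_ne_zero_of_finite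
    have := Nat.minFac_le_of_dvd (by omega) hdvd
    rw [MulAction.index_stabilizer] at this
    omega
  rw [Subgroup.index_eq_one] at hidx
  rw [Subgroup.mem_center_iff]
  intro g
  have hg : ConjAct.toConjAct g ∈ MulAction.stabilizer (ConjAct G) d := by
    rw [hidx]; exact Subgroup.mem_top _
  rw [MulAction.mem_stabilizer_iff, ConjAct.smul_def, ConjAct.ofConjAct_toConjAct] at hg
  calc g * d = g * d * g⁻¹ * g := by group
    _ = d * g := by rw [hg]

/-- The abstract counting bound. -/
theorem count_bound {G : Type*} [Finite G] (p : ℕ) (hp : 2 ≤ p)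
    (r : Setoid G) (Z T : Set G) (hZT : ∀ x, x ∈ Z → x ∉ T)
    (hZ : ∀ x, x ∉ Z → p ≤ Nat.card {y // r.r y x})
    (hT : ∀ x, x ∈ T → p * p ≤ Nat.card {y // r.r y x})
    (hTcard : Nat.card T * p = Nat.card G) (hZcard : Nat.card Z * (p * p) ≤ Nat.card G) :
    Nat.card (Quotient r) ≤ Nat.card G / p := by
  classical
  have := Fintype.ofFinite G
  rw [Nat.le_div_iff_mul_le (by omega)]
  have hp0 : (0 : ℚ) < p := by exact_mod_cast (by omega : 0 < p)
  have hp1 : (1 : ℚ) ≤ p := by exact_mod_cast (by omega : 1 ≤ p)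
  have hpos : ∀ x : G, 0 < Nat.card {y // r.r y x} := fun x => by
    have : Nonempty {y // r.r y x} := ⟨⟨x, r.refl x⟩⟩
    exact Nat.card_pos
  have hterm : ∀ x : G, (1 : ℚ) / (Nat.card {y // r.r y x} : ℚ) ≤
      1 / p + (if x ∈ Z then (1 - 1 / (p : ℚ)) else 0) -
        (if x ∈ T then (1 / (p : ℚ) - 1 / ((p : ℚ) * p)) else 0) := by
    intro x
    have hN : (0 : ℚ) < (Nat.card {y // r.r y x} : ℚ) := by exact_mod_cast hpos x
    by_cases hxZ : x ∈ Z
    · rw [if_pos hxZ, if_neg (hZT x hxZ)]
      have : (1 : ℚ) / (Nat.card {y // r.r y x} : ℚ) ≤ 1 := by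
        rw [div_le_one hN]; exact_mod_cast hpos x
      linarith
    · rw [if_neg hxZ]
      by_cases hxT : x ∈ T
      · rw [if_pos hxT]
        have h1 : ((p : ℚ) * p) ≤ (Nat.card {y // r.r y x} : ℚ) := by exact_mod_cast hT x hxT
        have : (1 : ℚ) / (Nat.card {y // r.r y x} : ℚ) ≤ 1 / ((p : ℚ) * p) :=
          one_div_le_one_div_of_le (by positivity) h1
        linarith
      · rw [if_neg hxT]
        have h1 : (p : ℚ) ≤ (Nat.card {y // r.r y x} : ℚ) := by exact_mod_cast hZ x hxZ
        have : (1 : ℚ) / (Nat.card {y // r.r y x} : ℚ) ≤ 1 / (p : ℚ) :=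
          one_div_le_one_div_of_le hp0 h1
        linarith
  have hsum : (Nat.card (Quotient r) : ℚ) ≤
      (Nat.card G : ℚ) * (1 / p) + (Nat.card Z : ℚ) * (1 - 1 / (p : ℚ)) -
        (Nat.card T : ℚ) * (1 / (p : ℚ) - 1 / ((p : ℚ) * p)) := by
    rw [card_quotient_eq_sum r]
    refine (Finset.sum_le_sum fun x _ => hterm x).trans (le_of_eq ?_)
    rw [Finset.sum_sub_distrib, Finset.sum_add_distrib, Finset.sum_const, Finset.card_univ,
      nsmul_eq_mul, Finset.sum_ite, Finset.sum_ite, Finset.sum_const, Finset.sum_const,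
      Finset.sum_const, Finset.sum_const]
    simp only [nsmul_eq_mul, mul_zero, add_zero]
    rw [Nat.card_eq_fintype_card, Nat.card_eq_fintype_card,
      Nat.card_eq_fintype_card, Fintype.card_subtype, Fintype.card_subtype]
  have hT' : (Nat.card T : ℚ) * p = Nat.card G := by exact_mod_cast hTcard
  have hZ' : (Nat.card Z : ℚ) * (p * p) ≤ Nat.card G := by exact_mod_cast hZcard
  have hgoal : (Nat.card (Quotient r) : ℚ) * p ≤ Nat.card G := by
    have e1 : ((Nat.card G : ℚ) * (1 / p) + (Nat.card Z : ℚ) * (1 - 1 / (p : ℚ)) -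
        (Nat.card T : ℚ) * (1 / (p : ℚ) - 1 / ((p : ℚ) * p))) * p =
        (Nat.card G : ℚ) + ((p : ℚ) - 1) * ((Nat.card Z : ℚ) * (p * p) - Nat.card G) / (p * p) := by
      rw [← hT']; field_simp; ring
    have e2 : ((p : ℚ) - 1) * ((Nat.card Z : ℚ) * (p * p) - Nat.card G) / (p * p) ≤ 0 := by
      apply div_nonpos_of_nonpos_of_nonneg
      · exact mul_nonpos_of_nonneg_of_nonpos (by linarith) (by linarith)
      · positivity
    calc (Nat.card (Quotient r) : ℚ) * p ≤ _ := mul_le_mul_of_nonneg_right hsum hp0.le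
      _ = _ := e1
      _ ≤ _ := by linarith
  exact_mod_cast hgoal

section orbits
variable {G : Type*} [Group G] [Finite G] {p : ℕ} [Fact p.Prime]

theorem comm_mem_center_of_le (hle : commutator G ≤ Subgroup.center G) (a b : G) :
    ⁅a, b⁆ ∈ Subgroup.center G :=
  hle (by
    rw [commutator_def]
    exact Subgroup.commutator_mem_commutator (Subgroup.mem_top a) (Subgroup.mem_top b))

theorem ofAdd_one_ne_one : (Multiplicative.ofAdd (1 : ZMod p)) ≠ 1 := by
  intro h
  have : (1 : ZMod p) = 0 := congrArg Multiplicative.toAdd h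
  exact one_ne_zero this

/-- For a non-central element, every element of the commutator subgroup is a commutator
with it. -/
theorem exists_comm_eq (hcard : Nat.card (commutator G) = p)
    (hcen : ∀ a b : G, ⁅a, b⁆ ∈ Subgroup.center G) {x : G} (hx : x ∉ Subgroup.center G)
    (d : G) (hd : d ∈ commutator G) : ∃ g : G, ⁅g, x⁆ = d := by
  have hr : (comHom hcen x).range = ⊤ := by
    have : Fact (Nat.card (commutator G)).Prime := ⟨by rw [hcard]; exact Fact.out⟩
    rcases Subgroup.eq_bot_or_eq_top_of_prime_card (comHom hcen x).range with h | h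
    · exfalso; apply hx
      rw [Subgroup.mem_center_iff]
      intro g
      have h1 : comHom hcen x g = 1 := by
        have : comHom hcen x g ∈ (comHom hcen x).range := ⟨g, rfl⟩
        rw [h] at this; exact Subgroup.mem_bot.mp this
      have h2 : ⁅g, x⁆ = 1 := congrArg Subtype.val h1
      exact commutatorElement_eq_one_iff_mul_comm.mp h2
    · exact h
  have : (⟨d, hd⟩ : commutator G) ∈ (comHom hcen x).range := by rw [hr]; exact Subgroup.mem_top _
  obtain ⟨g, hg⟩ := this
  exact ⟨g, congrArg Subtype.val hg⟩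

theorem mul_mem_orbit (hcard : Nat.card (commutator G) = p)
    (hcen : ∀ a b : G, ⁅a, b⁆ ∈ Subgroup.center G) {x : G} (hx : x ∉ Subgroup.center G)
    (d : G) (hd : d ∈ commutator G) : d * x ∈ MulAction.orbit (MulAut G) x := by
  obtain ⟨g, hg⟩ := exists_comm_eq hcard hcen hx d hd
  refine ⟨MulAut.conj g, ?_⟩
  show MulAut.conj g • x = d * x
  rw [MulAut.smul_def, MulAut.conj_apply, conj_eq_comm_mul, hg]

/-- A non-central element has at least `p` automorphic images. -/
theorem le_card_class_of_not_mem_center (hcard : Nat.card (commutator G) = p)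
    (hcen : ∀ a b : G, ⁅a, b⁆ ∈ Subgroup.center G) {x : G} (hx : x ∉ Subgroup.center G) :
    p ≤ Nat.card {y // (MulAction.orbitRel (MulAut G) G).r y x} := by
  rw [← hcard]
  refine Nat.card_le_card_of_injective
    (fun d : commutator G => (⟨(d : G) * x, mul_mem_orbit hcard hcen hx d d.2⟩ :
      {y // (MulAction.orbitRel (MulAut G) G).r y x})) ?_
  intro d d' h
  have : (d : G) * x = d' * x := congrArg Subtype.val h
  exact Subtype.ext (mul_right_cancel this)

/-- An element with `lam x = 1` (additively) has at least `p ^ 2` automorphic images. -/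
theorem le_card_class_of_lam (hp : (Nat.card G).minFac = p)
    (hcard : Nat.card (commutator G) = p) (hle : commutator G ≤ Subgroup.center G)
    (u c : G) (s : ℕ) (lam : G →* Multiplicative (ZMod p))
    (hc : ∀ x : G, Commute c x) (hcp : c ^ p = 1)
    (hκ : ∀ h : G, h * u * h⁻¹ * u⁻¹ = c ^ (s * (Multiplicative.toAdd (lam h)).val))
    (hup : u ^ p = c ^ (s * p.choose 2)) (hlu : lam u = 1)
    (hlZ : ∀ z ∈ Subgroup.center G, lam z = 1) (hu : u ∉ commutator G)
    {x : G} (hx : lam x = Multiplicative.ofAdd 1) :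
    p * p ≤ Nat.card {y // (MulAction.orbitRel (MulAut G) G).r y x} := by
  have hcen := comm_mem_center_of_le hle
  have hc1 : lam c = 1 := hlZ c (Subgroup.mem_center_iff.mpr fun g => (hc g).eq.symm)
  have hpow : ∀ n : ℕ, x * u ^ n ∈ MulAction.orbit (MulAut G) x := by
    intro n
    induction n with
    | zero => simp
    | succ n ih =>
      have hl : lam (x * u ^ n) = Multiplicative.ofAdd 1 := by
        rw [map_mul, map_pow, hlu, one_pow, mul_one, hx]
      have h1 : twistAut u c s lam hc hcp hκ hup hlu hc1 • (x * u ^ n) = x * u ^ (n + 1) := by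
        rw [MulAut.smul_def, twistAut_apply u c s lam hc hcp hκ hup hlu hc1 _ hl, pow_succ,
          mul_assoc]
      rw [← h1]
      exact MulAction.mem_orbit_of_mem_orbit _ ih
  have hmem : ∀ a ∈ commutator G ⊔ Subgroup.zpowers u,
      x * a ∈ MulAction.orbit (MulAut G) x := by
    intro a ha
    have ha' : a ∈ ((commutator G ⊔ Subgroup.zpowers u : Subgroup G) : Set G) := ha
    rw [Subgroup.normal_mul] at ha'
    obtain ⟨d, hd, w, hw, rfl⟩ := Set.mem_mul.mp ha'
    have hw' : w ∈ Submonoid.powers u := mem_powers_iff_mem_zpowers.mpr hw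
    obtain ⟨n, rfl⟩ := hw'
    have hdc := Subgroup.mem_center_iff.mp (hle hd)
    have hy : x * u ^ n ∉ Subgroup.center G := by
      intro hz
      have := hlZ _ hz
      rw [map_mul, map_pow, hlu, one_pow, mul_one, hx] at this
      exact ofAdd_one_ne_one this
    have h2 : x * (d * u ^ n) = d * (x * u ^ n) := by rw [← mul_assoc, hdc x, mul_assoc]
    rw [h2]
    have h3 := mul_mem_orbit hcard hcen hy d hd
    have h4 := MulAction.orbit_eq_iff.mpr (hpow n)
    rw [← h4]
    exact h3
  have hlt : commutator G < commutator G ⊔ Subgroup.zpowers u := by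
    refine lt_of_le_of_ne le_sup_left ?_
    intro h
    apply hu
    rw [h]
    exact (le_sup_right : Subgroup.zpowers u ≤ _) (Subgroup.mem_zpowers u)
  have hA : p * p ≤ Nat.card (commutator G ⊔ Subgroup.zpowers u : Subgroup G) := by
    have := minFac_mul_card_le hlt
    rwa [hp, hcard] at this
  refine hA.trans ?_
  refine Nat.card_le_card_of_injective
    (fun a : (commutator G ⊔ Subgroup.zpowers u : Subgroup G) =>
      (⟨x * (a : G), hmem a a.2⟩ : {y // (MulAction.orbitRel (MulAut G) G).r y x})) ?_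
  intro a a' h
  have : x * (a : G) = x * a' := congrArg Subtype.val h
  exact Subtype.ext (mul_left_cancel this)

/-- The fibre of `lam` over the generator has `|G| / p` elements. -/
theorem card_fiber_mul (lam : G →* Multiplicative (ZMod p)) (t : G)
    (ht : lam t = Multiplicative.ofAdd 1) :
    Nat.card {x : G | lam x = Multiplicative.ofAdd 1} * p = Nat.card G := by
  have e : {x : G | lam x = Multiplicative.ofAdd 1} ≃ lam.ker :=
    { toFun := fun x => ⟨t⁻¹ * x.1, by
        have hx : lam x.1 = Multiplicative.ofAdd 1 := x.2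
        rw [MonoidHom.mem_ker, map_mul, map_inv, ht, hx, inv_mul_cancel]⟩
      invFun := fun k => ⟨t * k.1, by
        show lam (t * k.1) = _
        rw [map_mul, ht, MonoidHom.mem_ker.mp k.2, mul_one]⟩
      left_inv := fun x => Subtype.ext (by simp)
      right_inv := fun k => Subtype.ext (by simp) }
  rw [Nat.card_congr e]
  have hcardM : Nat.card (Multiplicative (ZMod p)) = p := by
    rw [Nat.card_eq_fintype_card, Fintype.card_multiplicative, ZMod.card]
  have hr : lam.range = ⊤ := by
    have : Fact (Nat.card (Multiplicative (ZMod p))).Prime := ⟨by rw [hcardM]; exact Fact.out⟩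
    rcases Subgroup.eq_bot_or_eq_top_of_prime_card lam.range with h | h
    · exfalso
      have : lam t ∈ lam.range := ⟨t, rfl⟩
      rw [h, Subgroup.mem_bot, ht] at this
      exact ofAdd_one_ne_one this
    · exact h
  rw [← Subgroup.card_mul_index lam.ker, Subgroup.index_ker, hr, Subgroup.card_top, hcardM]

/-- `|Z(G)| p² ≤ |G|` for a non-abelian group. -/
theorem card_center_mul_le {x₀ : G} (hx₀ : x₀ ∉ Subgroup.center G) :
    Nat.card (Subgroup.center G) * ((Nat.card G).minFac * (Nat.card G).minFac) ≤ Nat.card G := by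
  have h1 : Subgroup.center G < Subgroup.centralizer {x₀} := by
    refine lt_of_le_of_ne (Subgroup.center_le_centralizer _) ?_
    intro h
    apply hx₀
    rw [h]
    exact Subgroup.mem_centralizer_iff.mpr (fun y hy => by rw [Set.mem_singleton_iff.mp hy])
  have h2 : Subgroup.centralizer {x₀} < (⊤ : Subgroup G) := by
    refine lt_of_le_of_ne le_top ?_
    intro h
    apply hx₀
    rw [Subgroup.mem_center_iff]
    intro g
    have : g ∈ Subgroup.centralizer {x₀} := by rw [h]; exact Subgroup.mem_top g
    exact (Subgroup.mem_centralizer_iff.mp this x₀ (Set.mem_singleton x₀)).symm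
  have e1 := minFac_mul_card_le h1
  have e2 := minFac_mul_card_le h2
  rw [Subgroup.card_top] at e2
  calc Nat.card (Subgroup.center G) * ((Nat.card G).minFac * (Nat.card G).minFac)
      = (Nat.card G).minFac * ((Nat.card G).minFac * Nat.card (Subgroup.center G)) := by ring
    _ ≤ (Nat.card G).minFac * Nat.card (Subgroup.centralizer {x₀}) := Nat.mul_le_mul_left _ e1
    _ ≤ Nat.card G := e2

/-- The orbit bound from the twist data. -/
theorem card_orbits_le_of_twist (hp : (Nat.card G).minFac = p)
    (hcard : Nat.card (commutator G) = p) (hle : commutator G ≤ Subgroup.center G)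
    (u c : G) (s : ℕ) (lam : G →* Multiplicative (ZMod p))
    (hc : ∀ x : G, Commute c x) (hcp : c ^ p = 1)
    (hκ : ∀ h : G, h * u * h⁻¹ * u⁻¹ = c ^ (s * (Multiplicative.toAdd (lam h)).val))
    (hup : u ^ p = c ^ (s * p.choose 2)) (hlu : lam u = 1)
    (hlZ : ∀ z ∈ Subgroup.center G, lam z = 1) (hu : u ∉ commutator G)
    (t : G) (ht : lam t = Multiplicative.ofAdd 1) :
    Nat.card (MulAction.orbitRel.Quotient (MulAut G) G) ≤ Nat.card G / p := by
  have hcen := comm_mem_center_of_le hle
  have ht0 : t ∉ Subgroup.center G := by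
    intro hz
    have := hlZ _ hz
    rw [ht] at this
    exact ofAdd_one_ne_one this
  have hZc := card_center_mul_le ht0
  rw [hp] at hZc
  exact count_bound p (Fact.out : p.Prime).two_le (MulAction.orbitRel (MulAut G) G)
    (Subgroup.center G : Set G) {x : G | lam x = Multiplicative.ofAdd 1}
    (fun x hx hxT => by
      have h1 : lam x = 1 := hlZ x hx
      have h2 : lam x = Multiplicative.ofAdd 1 := hxT
      rw [h1] at h2
      exact ofAdd_one_ne_one h2.symm)
    (fun x hx => le_card_class_of_not_mem_center hcard hcen hx)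
    (fun x hx => le_card_class_of_lam hp hcard hle u c s lam hc hcp hκ hup hlu hlZ hu hx)
    (card_fiber_mul lam t ht) hZc

end orbits

section existence
variable {G : Type*} [Group G] [Finite G] {p : ℕ} [Fact p.Prime]

theorem comm_mem_commutator (a b : G) : ⁅a, b⁆ ∈ commutator G := by
  rw [commutator_def]
  exact Subgroup.commutator_mem_commutator (Subgroup.mem_top a) (Subgroup.mem_top b)

theorem pow_eq_one_of_mem_commutator (hcard : Nat.card (commutator G) = p) (d : G)
    (hd : d ∈ commutator G) : d ^ p = 1 := by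
  have := pow_card_eq_one' (G := commutator G) (x := ⟨d, hd⟩)
  rw [hcard] at this
  exact congrArg Subtype.val this

/-- Setup: a generator `c` of the commutator subgroup and the commutator pairing. -/
theorem exists_lamOf (hcard : Nat.card (commutator G) = p)
    (hcen : ∀ a b : G, ⁅a, b⁆ ∈ Subgroup.center G) :
    ∃ (c : G) (lamOf : G → (G →* Multiplicative (ZMod p))),
      c ∈ commutator G ∧ c ^ p = 1 ∧
      (∀ v h : G, ⁅h, v⁆ = c ^ (Multiplicative.toAdd (lamOf v h)).val) ∧
      (∀ v h : G, ⁅h, v⁆ = 1 → lamOf v h = 1) ∧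
      (∀ v : G, v ∉ Subgroup.center G → ∃ t, lamOf v t = Multiplicative.ofAdd 1) := by
  have hcardM : Nat.card (Multiplicative (ZMod p)) = p := by
    rw [Nat.card_eq_fintype_card, Fintype.card_multiplicative, ZMod.card]
  let e : Multiplicative (ZMod p) ≃* ↥(commutator G) := mulEquivOfPrimeCardEq hcardM hcard
  refine ⟨(e (Multiplicative.ofAdd 1) : G), fun v => e.symm.toMonoidHom.comp (comHom hcen v),
    (e (Multiplicative.ofAdd 1)).2, ?_, ?_, ?_, ?_⟩
  · exact pow_eq_one_of_mem_commutator hcard _ (e (Multiplicative.ofAdd 1)).2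
  · intro v h
    have h1 : ∀ b : Multiplicative (ZMod p),
        b = (Multiplicative.ofAdd (1 : ZMod p)) ^ (Multiplicative.toAdd b).val := by
      intro b
      rw [← ofAdd_nsmul, nsmul_eq_mul, mul_one, ZMod.natCast_zmod_val]; rfl
    show ⁅h, v⁆ = ((e (Multiplicative.ofAdd 1) : ↥(commutator G)) : G) ^
      (Multiplicative.toAdd (e.symm (comHom hcen v h))).val
    rw [← Subgroup.coe_pow, ← map_pow, ← h1, MulEquiv.apply_symm_apply, comHom_coe]
  · intro v h hh
    show e.symm (comHom hcen v h) = 1
    have : comHom hcen v h = 1 := Subtype.ext hh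
    rw [this, map_one]
  · intro v hv
    obtain ⟨t, ht⟩ := exists_comm_eq hcard hcen hv (e (Multiplicative.ofAdd 1) : G)
      (e (Multiplicative.ofAdd 1)).2
    refine ⟨t, ?_⟩
    show e.symm (comHom hcen v t) = Multiplicative.ofAdd 1
    have : comHom hcen v t = e (Multiplicative.ofAdd 1) := Subtype.ext ht
    rw [this, MulEquiv.symm_apply_apply]

/-- For odd `p`: a non-central element of order dividing `p` exists as soon as the central
elements of order dividing `p` all lie in the commutator subgroup. -/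
theorem exists_noncentral_pow_eq_one (hp : (Nat.card G).minFac = p) (hp2 : p ≠ 2)
    (hcard : Nat.card (commutator G) = p) (hle : commutator G ≤ Subgroup.center G)
    {x₀ : G} (hx₀ : x₀ ∉ Subgroup.center G)
    (hcase : ∀ z ∈ Subgroup.center G, z ^ p = 1 → z ∈ commutator G) :
    ∃ u : G, u ∉ Subgroup.center G ∧ u ^ p = 1 := by
  by_contra hcon
  push Not at hcon
  have hcen := comm_mem_center_of_le hle
  have hpp : p.Prime := Fact.out
  have hdvd : p ∣ p.choose 2 :=
    hpp.dvd_choose_self (by norm_num) (by have := hpp.two_le; omega)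
  have hdp := pow_eq_one_of_mem_commutator hcard
  let P : G →* G :=
    { toFun := fun g => g ^ p
      map_one' := one_pow p
      map_mul' := fun g h => by
        rw [mul_pow_class2 hcen g h p]
        obtain ⟨k, hk⟩ := hdvd
        rw [hk, pow_mul, hdp _ (comm_mem_commutator h g), one_pow, mul_one] }
  have hker : P.ker ≤ commutator G := by
    intro g hg
    have hg1 : g ^ p = 1 := MonoidHom.mem_ker.mp hg
    have hgZ : g ∈ Subgroup.center G := by
      by_contra hgZ; exact hcon g hgZ hg1
    exact hcase g hgZ hg1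
  have hrange : P.range ≤ Subgroup.center G := by
    rintro _ ⟨g, rfl⟩
    show g ^ p ∈ Subgroup.center G
    rw [Subgroup.mem_center_iff]
    intro h
    have : ⁅h, g ^ p⁆ = 1 := by rw [comm_pow_right hcen, hdp _ (comm_mem_commutator h g)]
    exact commutatorElement_eq_one_iff_mul_comm.mp this
  have h1 : Nat.card P.ker ≤ p := hcard ▸ Subgroup.card_le_of_le hker
  have h2 : Nat.card P.range ≤ Nat.card (Subgroup.center G) := Subgroup.card_le_of_le hrange
  have h3 : Nat.card P.ker * Nat.card P.range = Nat.card G := by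
    rw [← Subgroup.index_ker, Subgroup.card_mul_index]
  have h4 := card_center_mul_le hx₀
  rw [hp] at h4
  have hZpos : 0 < Nat.card (Subgroup.center G) := Nat.card_pos
  have h5 : Nat.card (Subgroup.center G) * p * p ≤ Nat.card (Subgroup.center G) * p * 1 := by
    calc Nat.card (Subgroup.center G) * p * p = Nat.card (Subgroup.center G) * (p * p) := by ring
      _ ≤ Nat.card G := h4
      _ = Nat.card P.ker * Nat.card P.range := h3.symm
      _ ≤ p * Nat.card (Subgroup.center G) := Nat.mul_le_mul h1 h2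
      _ = Nat.card (Subgroup.center G) * p * 1 := by ring
  have h6 := Nat.le_of_mul_le_mul_left h5 (Nat.mul_pos hZpos hpp.pos)
  have := hpp.two_le
  omega

/-- For `p = 2`: a non-central element whose square is the generator `c` exists as soon as the
central involutions all lie in the commutator subgroup. -/
theorem exists_noncentral_sq_eq (hp2 : p = 2)
    (hcard : Nat.card (commutator G) = p) (hle : commutator G ≤ Subgroup.center G)
    (c : G) (hcG : c ∈ commutator G) (lamOf : G → (G →* Multiplicative (ZMod p)))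
    (hlam : ∀ v h : G, ⁅h, v⁆ = c ^ (Multiplicative.toAdd (lamOf v h)).val)
    (hlam1 : ∀ v h : G, ⁅h, v⁆ = 1 → lamOf v h = 1)
    (hlamt : ∀ v : G, v ∉ Subgroup.center G → ∃ t, lamOf v t = Multiplicative.ofAdd 1)
    {x₀ : G} (hx₀ : x₀ ∉ Subgroup.center G)
    (hcase : ∀ z ∈ Subgroup.center G, z ^ p = 1 → z ∈ commutator G) :
    ∃ u : G, u ∉ Subgroup.center G ∧ u ^ 2 = c := by
  subst hp2
  have hcen := comm_mem_center_of_le hle
  have hd2 := pow_eq_one_of_mem_commutator hcard
  have hcZ : c ∈ Subgroup.center G := hle hcG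
  have hc2 : c ^ 2 = 1 := hd2 c hcG
  have hsqZ : ∀ g : G, g ^ 2 ∈ Subgroup.center G := by
    intro g
    rw [Subgroup.mem_center_iff]
    intro h
    have : ⁅h, g ^ 2⁆ = 1 := by rw [comm_pow_right hcen, hd2 _ (comm_mem_commutator h g)]
    exact commutatorElement_eq_one_iff_mul_comm.mp this
  obtain ⟨y₀, hy₀⟩ := hlamt x₀ hx₀
  have hval1 : (Multiplicative.toAdd (Multiplicative.ofAdd (1 : ZMod 2))).val = 1 := by
    rw [toAdd_ofAdd]; rfl
  have hyx : ⁅y₀, x₀⁆ = c := by rw [hlam x₀ y₀, hy₀, hval1, pow_one]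
  have hy₀Z : y₀ ∉ Subgroup.center G := by
    intro hz
    have : ⁅y₀, x₀⁆ = 1 :=
      commutatorElement_eq_one_iff_mul_comm.mpr (Subgroup.mem_center_iff.mp hz x₀).symm
    have h1 := hlam1 x₀ y₀ this
    rw [hy₀] at h1; exact ofAdd_one_ne_one h1
  have hxyZ : x₀ * y₀ ∉ Subgroup.center G := by
    intro hz
    have : ⁅x₀ * y₀, x₀⁆ = 1 :=
      commutatorElement_eq_one_iff_mul_comm.mpr (Subgroup.mem_center_iff.mp hz x₀).symm
    have h1 := hlam1 x₀ (x₀ * y₀) this
    rw [map_mul, hy₀, hlam1 x₀ x₀ (commutatorElement_self x₀), one_mul] at h1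
    exact ofAdd_one_ne_one h1
  let sq : ↥(Subgroup.center G) →* ↥(Subgroup.center G) :=
    { toFun := fun z => z ^ 2
      map_one' := one_pow 2
      map_mul' := fun a b => by
        have hab : Commute a b := Subtype.ext (Subgroup.mem_center_iff.mp a.2 (b : G)).symm
        exact hab.mul_pow 2 }
  have hkercard : Nat.card sq.ker = 2 := by
    apply le_antisymm
    · rw [← hcard]
      refine Nat.card_le_card_of_injective
        (fun z : sq.ker => (⟨(z.1 : G), hcase z.1.1 z.1.2 (by
          have : (z.1) ^ 2 = 1 := MonoidHom.mem_ker.mp z.2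
          exact congrArg Subtype.val this)⟩ : commutator G)) ?_
      intro z z' h
      have h' := congrArg (fun d : commutator G => (d : G)) h
      exact Subtype.ext (Subtype.ext h')
    · rw [← hcard]
      refine Nat.card_le_card_of_injective
        (fun d : commutator G => (⟨⟨(d : G), hle d.2⟩, by
          rw [MonoidHom.mem_ker]; exact Subtype.ext (hd2 d d.2)⟩ : sq.ker)) ?_
      intro d d' h
      have h' : (d : G) = (d' : G) := congrArg (fun z : sq.ker => ((z.1 : Subgroup.center G) : G)) h
      exact Subtype.ext h'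
  have hidx : sq.range.index = 2 := by
    have h1 : Nat.card sq.ker * Nat.card sq.range = Nat.card (Subgroup.center G) := by
      rw [← Subgroup.index_ker, Subgroup.card_mul_index]
    have h2 : Nat.card sq.range * sq.range.index = Nat.card (Subgroup.center G) :=
      Subgroup.card_mul_index _
    have h3 : 0 < Nat.card sq.range := Nat.card_pos
    rw [hkercard] at h1
    have : Nat.card sq.range * sq.range.index = Nat.card sq.range * 2 := by
      rw [h2, ← h1, mul_comm]
    exact Nat.eq_of_mul_eq_mul_left h3 this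
  have key : ∀ (w : G), w ∉ Subgroup.center G → ∀ a : Subgroup.center G, a ∈ sq.range →
      (a : G) = c * w ^ 2 → ∃ u : G, u ∉ Subgroup.center G ∧ u ^ 2 = c := by
    intro w hwZ a ha haw
    obtain ⟨z, hz⟩ := ha
    have hz2 : (z : G) ^ 2 = c * w ^ 2 := by rw [← haw, ← hz]; rfl
    have hzc := Subgroup.mem_center_iff.mp z.2
    refine ⟨w * (z : G)⁻¹, ?_, ?_⟩
    · intro hmem
      apply hwZ
      have : w = w * (z : G)⁻¹ * z := by group
      rw [this]; exact mul_mem hmem z.2
    · have hcomm : Commute w (z : G)⁻¹ := (show Commute w (z : G) from hzc w).inv_right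
      have hc_inv : c⁻¹ = c := by
        rw [inv_eq_iff_eq_inv, eq_inv_iff_mul_eq_one, ← pow_two]; exact hc2
      rw [hcomm.mul_pow, inv_pow, hz2, mul_inv_rev, ← mul_assoc, mul_inv_cancel, one_mul, hc_inv]
  obtain ⟨C, hC⟩ : ∃ C : Subgroup.center G, (C : G) = c := ⟨⟨c, hcZ⟩, rfl⟩
  obtain ⟨X, hX⟩ : ∃ X : Subgroup.center G, (X : G) = x₀ ^ 2 := ⟨⟨x₀ ^ 2, hsqZ x₀⟩, rfl⟩
  obtain ⟨Y, hY⟩ : ∃ Y : Subgroup.center G, (Y : G) = y₀ ^ 2 := ⟨⟨y₀ ^ 2, hsqZ y₀⟩, rfl⟩
  by_cases hCX : C * X ∈ sq.range
  · exact key x₀ hx₀ (C * X) hCX (by rw [Subgroup.coe_mul, hC, hX])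
  by_cases hCY : C * Y ∈ sq.range
  · exact key y₀ hy₀Z (C * Y) hCY (by rw [Subgroup.coe_mul, hC, hY])
  · have hXY : (C * X) * (C * Y) ∈ sq.range :=
      (Subgroup.mul_mem_iff_of_index_two hidx).mpr (by simp [hCX, hCY])
    refine key (x₀ * y₀) hxyZ ((C * X) * (C * Y)) hXY ?_
    rw [Subgroup.coe_mul, Subgroup.coe_mul, Subgroup.coe_mul, hC, hX, hY,
      mul_pow_class2 hcen x₀ y₀ 2, hyx]
    have hcc := Subgroup.mem_center_iff.mp hcZ
    have h22 : Nat.choose 2 2 = 1 := by decide
    rw [h22, pow_one]
    calc c * x₀ ^ 2 * (c * y₀ ^ 2) = c * (x₀ ^ 2 * c) * y₀ ^ 2 := by group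
      _ = c * (c * x₀ ^ 2) * y₀ ^ 2 := by rw [hcc (x₀ ^ 2)]
      _ = c * (c * (x₀ ^ 2 * y₀ ^ 2)) := by group
      _ = c * (x₀ ^ 2 * y₀ ^ 2 * c) := by rw [hcc (x₀ ^ 2 * y₀ ^ 2)]

/-- Existence of the data for the twist automorphism. -/
theorem exists_twist_data (hp : (Nat.card G).minFac = p) (hcard : Nat.card (commutator G) = p)
    (hle : commutator G ≤ Subgroup.center G) {x₀ : G} (hx₀ : x₀ ∉ Subgroup.center G) :
    ∃ (u c : G) (s : ℕ) (lam : G →* Multiplicative (ZMod p)),
      (∀ x : G, Commute c x) ∧ c ^ p = 1 ∧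
      (∀ h : G, h * u * h⁻¹ * u⁻¹ = c ^ (s * (Multiplicative.toAdd (lam h)).val)) ∧
      u ^ p = c ^ (s * p.choose 2) ∧ lam u = 1 ∧ (∀ z ∈ Subgroup.center G, lam z = 1) ∧
      (∃ t, lam t = Multiplicative.ofAdd 1) ∧ u ∉ commutator G := by
  have hcen := comm_mem_center_of_le hle
  obtain ⟨c, lamOf, hcG, hcp, hlam, hlam1, hlamt⟩ := exists_lamOf hcard hcen
  have hcZ := hle hcG
  have hc : ∀ x : G, Commute c x := fun x => (Subgroup.mem_center_iff.mp hcZ x).symm
  have hlamZ : ∀ v z : G, z ∈ Subgroup.center G → lamOf v z = 1 := fun v z hz =>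
    hlam1 v z (commutatorElement_eq_one_iff_mul_comm.mpr (Subgroup.mem_center_iff.mp hz v).symm)
  by_cases hcase : ∀ z ∈ Subgroup.center G, z ^ p = 1 → z ∈ commutator G
  · have hu : ∃ u : G, u ∉ Subgroup.center G ∧ u ^ p = c ^ (p.choose 2) := by
      by_cases hp2 : p = 2
      · obtain ⟨u, hu1, hu2⟩ :=
          exists_noncentral_sq_eq hp2 hcard hle c hcG lamOf hlam hlam1 hlamt hx₀ hcase
        refine ⟨u, hu1, ?_⟩
        subst hp2
        rw [hu2]
        have h22 : Nat.choose 2 2 = 1 := by decide
        rw [h22, pow_one]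
      · obtain ⟨u, hu1, hu2⟩ := exists_noncentral_pow_eq_one hp hp2 hcard hle hx₀ hcase
        refine ⟨u, hu1, ?_⟩
        have hpp : p.Prime := Fact.out
        obtain ⟨k, hk⟩ := hpp.dvd_choose_self (k := 2) (by norm_num)
          (by have := hpp.two_le; omega)
        rw [hu2, hk, pow_mul, hcp, one_pow]
    obtain ⟨u, hu1, hu2⟩ := hu
    refine ⟨u, c, 1, lamOf u, hc, hcp, ?_, ?_, ?_, ?_, hlamt u hu1, fun h => hu1 (hle h)⟩
    · intro h; rw [one_mul, ← hlam u h, commutatorElement_def]
    · rw [one_mul, hu2]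
    · exact hlam1 u u (commutatorElement_self u)
    · exact fun z hz => hlamZ u z hz
  · push Not at hcase
    obtain ⟨u, huZ, hup, huG⟩ := hcase
    have huc := Subgroup.mem_center_iff.mp huZ
    refine ⟨u, c, 0, lamOf x₀, hc, hcp, ?_, ?_, ?_, ?_, hlamt x₀ hx₀, huG⟩
    · intro h; rw [zero_mul, pow_zero, huc h]; group
    · rw [zero_mul, pow_zero, hup]
    · exact hlamZ x₀ u huZ
    · exact fun z hz => hlamZ x₀ z hz

end existence

end Cfsg.Agent.H77.AutOrb
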