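import Mathlib
import Cfsg.Agent.S0033

/-!
# Camina pairs

Lemmas for Camina's theorem: if `N` is a normal subgroup of the finite group `G` such that every
`g ∉ N` is conjugate to every element of `gN`, then `G` is a Frobenius group with kernel `N`, or
`N` is a `p`-group, or `G/N` is a `p`-group.
-/

set_option autoImplicit false

namespace Cfsg.Agent.H77.Camina

/-- Abelian rank-two lemma: two commuting endomorphisms of order dividing `p` of a finite
abelian `p'`-group, all of whose nontrivial combinations are fixed-point-free, force the group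
to be trivial. -/
theorem abelian_rank_two {V : Type*} [CommGroup V] [Finite V] {p : ℕ} (hp : p.Prime)
    (hcop : (Nat.card V).Coprime p) (f g : Monoid.End V) (hfg : Commute f g)
    (hf : f ^ p = 1) (hg : g ^ p = 1)
    (hfpf : ∀ i j : ℕ, ¬ (p ∣ i ∧ p ∣ j) → ∀ v : V, (f ^ i * g ^ j) v = v → v = 1) :
    ∀ v : V, v = 1 := by
  have norm1 : ∀ α : Monoid.End V, α ^ p = 1 → (∀ v, α v = v → v = 1) →
      ∀ v : V, ∏ k ∈ Finset.range p, (α ^ k) v = 1 := by
    intro α hα hfix v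
    apply hfix
    rw [map_prod]
    have h1 : ∀ k, α ((α ^ k) v) = (α ^ (k+1)) v := by
      intro k; rw [pow_succ']; rfl
    simp_rw [h1]
    have h2 := Finset.prod_range_succ' (fun k => (α ^ k) v) p
    have h3 := Finset.prod_range_succ (fun k => (α ^ k) v) p
    rw [h2] at h3
    simp only [hα, pow_zero] at h3
    exact mul_right_cancel h3
  intro v
  have hA1 : ∏ j ∈ Finset.range p, ∏ k ∈ Finset.range p, ((f * g ^ j) ^ k) v = 1 := by
    apply Finset.prod_eq_one
    intro j _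
    apply norm1
    · rw [(hfg.pow_right j).mul_pow, hf, ← pow_mul, mul_comm, pow_mul, hg, one_pow, one_mul]
    · intro w hw
      apply hfpf 1 j _ w
      · rwa [pow_one]
      · rintro ⟨h1, _⟩
        exact hp.one_lt.ne' (Nat.dvd_one.mp h1)
  rw [Finset.prod_comm] at hA1
  have hA2 : ∀ k ∈ Finset.range p, ∏ j ∈ Finset.range p, ((f * g ^ j) ^ k) v
      = (f ^ k) (∏ j ∈ Finset.range p, ((g ^ k) ^ j) v) := by
    intro k _
    rw [map_prod]
    apply Finset.prod_congr rfl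
    intro j _
    rw [(hfg.pow_right j).mul_pow, ← pow_mul, ← pow_mul, mul_comm j k]
    rfl
  rw [Finset.prod_congr rfl hA2] at hA1
  obtain ⟨p', rfl⟩ : ∃ p', p = p' + 1 := ⟨p - 1, (Nat.succ_pred_eq_of_pos hp.pos).symm⟩
  rw [Finset.prod_range_succ' (fun k => (f ^ k) (∏ j ∈ Finset.range (p' + 1), ((g ^ k) ^ j) v))] at hA1
  have hA3 : ∀ k ∈ Finset.range p', (f ^ (k+1)) (∏ j ∈ Finset.range (p' + 1), ((g ^ (k+1)) ^ j) v) = 1 := by
    intro k hk
    rw [norm1 (g ^ (k+1)) (by rw [← pow_mul, mul_comm, pow_mul, hg, one_pow]) _ v, map_one]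
    intro w hw
    apply hfpf 0 (k+1) _ w
    · rwa [pow_zero, one_mul]
    · rintro ⟨_, h2⟩
      have := Nat.le_of_dvd (Nat.succ_pos k) h2
      have := Finset.mem_range.mp hk
      omega
  rw [Finset.prod_eq_one hA3, one_mul] at hA1
  simp only [pow_zero, one_pow, Finset.prod_const, Finset.card_range] at hA1
  have hv : v ^ (p' + 1) = 1 := hA1
  have h1 : orderOf v ∣ p' + 1 := orderOf_dvd_of_pow_eq_one hv
  have h2 : orderOf v ∣ Nat.card V := orderOf_dvd_natCard v
  have h3 : orderOf v ∣ 1 := by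
    have := Nat.dvd_gcd h2 h1
    rwa [hcop] at this
  exact orderOf_eq_one_iff.mp (Nat.dvd_one.mp h3)

/-- Conjugation by `e`, restricted to a subgroup which it maps into itself. -/
def conjRes {Γ : Type*} [Group Γ] (W : Subgroup Γ) (e : Γ) (h : ∀ w ∈ W, e * w * e⁻¹ ∈ W) :
    Monoid.End ↥W where
  toFun w := ⟨e * w * e⁻¹, h w w.2⟩
  map_one' := by ext; simp
  map_mul' a b := by ext; simp [mul_assoc]

theorem conjRes_pow {Γ : Type*} [Group Γ] (W : Subgroup Γ) (e : Γ)
    (h : ∀ w ∈ W, e * w * e⁻¹ ∈ W) (n : ℕ) (w : ↥W) :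
    (((conjRes W e h) ^ n) w : Γ) = e ^ n * w * (e ^ n)⁻¹ := by
  induction n generalizing w with
  | zero => simp
  | succ n ih =>
    rw [pow_succ]
    show (((conjRes W e h) ^ n) ((conjRes W e h) w) : Γ) = _
    rw [ih]
    show e ^ n * (e * w * e⁻¹) * (e ^ n)⁻¹ = _
    rw [pow_succ]; group

theorem normalizes_pow {Γ : Type*} [Group Γ] (W : Subgroup Γ) (e : Γ)
    (h : ∀ w ∈ W, e * w * e⁻¹ ∈ W) (n : ℕ) : ∀ w ∈ W, e ^ n * w * (e ^ n)⁻¹ ∈ W := by
  induction n with
  | zero => intro w hw; simpa using hw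
  | succ n ih =>
    intro w hw
    have := ih _ (h w hw)
    have e1 : e ^ (n + 1) * w * (e ^ (n + 1))⁻¹ = e ^ n * (e * w * e⁻¹) * (e ^ n)⁻¹ := by
      rw [pow_succ]; group
    rw [e1]; exact this

theorem normalizes_inv {Γ : Type*} [Group Γ] [Finite Γ] (W : Subgroup Γ) (e : Γ)
    (h : ∀ w ∈ W, e * w * e⁻¹ ∈ W) : ∀ w ∈ W, e⁻¹ * w * e ∈ W := by
  have e1 : e⁻¹ = e ^ (orderOf e - 1) := by
    rw [eq_comm, ← mul_eq_one_iff_eq_inv', ← pow_succ',
      Nat.sub_add_cancel (orderOf_pos e), pow_orderOf_eq_one]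
  intro w hw
  have := normalizes_pow W e h (orderOf e - 1) w hw
  rw [← e1, inv_inv] at this
  exact this

open scoped IsMulCommutative in
/-- A rank-two elementary abelian `p`-group cannot act on a nontrivial `p'`-group with every
nonidentity element acting fixed-point-freely. -/
theorem rank_two_fixed {Γ : Type*} [Group Γ] [Finite Γ] {p : ℕ} (hp : p.Prime) (K : Subgroup Γ)
    (hK : K ≠ ⊥) (hcop : (Nat.card K).Coprime p) (e₁ e₂ : Γ)
    (h₁ : ∀ k ∈ K, e₁ * k * e₁⁻¹ ∈ K) (h₂ : ∀ k ∈ K, e₂ * k * e₂⁻¹ ∈ K)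
    (hcomm : e₁ * e₂ = e₂ * e₁) (he₁ : e₁ ^ p = 1) (he₂ : e₂ ^ p = 1) :
    ∃ i j : ℕ, ¬ (p ∣ i ∧ p ∣ j) ∧ ∃ k ∈ K, k ≠ 1 ∧
      (e₁ ^ i * e₂ ^ j) * k = k * (e₁ ^ i * e₂ ^ j) := by
  by_contra hcon
  have hcon' : ∀ i j : ℕ, ¬ (p ∣ i ∧ p ∣ j) → ∀ k ∈ K,
      (e₁ ^ i * e₂ ^ j) * k = k * (e₁ ^ i * e₂ ^ j) → k = 1 := by
    intro i j hij k hk heq
    by_contra hk1
    exact hcon ⟨i, j, hij, k, hk, hk1, heq⟩
  have := Fact.mk hp
  have hp1 : ¬ (p ∣ 1 ∧ p ∣ 0) := fun h => hp.one_lt.ne' (Nat.dvd_one.mp h.1)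
  have h₁' := normalizes_inv K e₁ h₁
  have h₂' := normalizes_inv K e₂ h₂
  let φ : ↥K ≃* ↥K :=
    { toFun := fun k => ⟨e₁ * k * e₁⁻¹, h₁ k k.2⟩
      invFun := fun k => ⟨e₁⁻¹ * k * e₁, h₁' k k.2⟩
      left_inv := fun k => by ext; simp [mul_assoc]
      right_inv := fun k => by ext; simp [mul_assoc]
      map_mul' := fun a b => by ext; simp [mul_assoc] }
  have hφfpf : MonoidHom.FixedPointFree (φ : ↥K →* ↥K) := by
    intro k hk
    have hk' : e₁ * (k : Γ) * e₁⁻¹ = k := congrArg Subtype.val hk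
    apply Subtype.ext
    apply hcon' 1 0 hp1 k k.2
    rw [pow_one, pow_zero, mul_one]
    nth_rewrite 2 [← hk']; group
  have hφpow : ∀ (n : ℕ) (k : ↥K), ((φ ^ n) k : Γ) = e₁ ^ n * k * (e₁ ^ n)⁻¹ := by
    intro n
    induction n with
    | zero => intro k; simp
    | succ n ih =>
      intro k
      rw [pow_succ, MulAut.mul_apply, ih]
      show e₁ ^ n * (e₁ * k * e₁⁻¹) * (e₁ ^ n)⁻¹ = _
      rw [pow_succ]; group
  have hKnt : Nontrivial ↥K := (Subgroup.nontrivial_iff_ne_bot K).mpr hK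
  have hφord : orderOf φ = p := by
    apply orderOf_eq_prime
    · ext k
      rw [hφpow, he₁]; simp
    · intro h1
      obtain ⟨k, hk⟩ := exists_ne (1 : ↥K)
      apply hk
      apply hφfpf
      show φ k = k
      rw [h1]; rfl
  have hKnil : Group.IsNilpotent ↥K := Cfsg.Agent.S0033.result φ hφfpf p hp hφord
  have hc : Subgroup.center ↥K ≠ ⊥ := Group.IsNilpotent.center_ne_bot ↥K
  obtain ⟨⟨z, hz⟩, hz1⟩ := (Subgroup.ne_bot_iff_exists_ne_one).mp hc
  -- the centre of K, as a subgroup of Γ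
  let Z : Subgroup Γ := K ⊓ Subgroup.centralizer (K : Set Γ)
  have hZK : Z ≤ K := inf_le_left
  have hZmem : ∀ w : Γ, w ∈ Z ↔ w ∈ K ∧ ∀ k ∈ K, k * w = w * k := by
    intro w
    show w ∈ K ⊓ Subgroup.centralizer (K : Set Γ) ↔ _
    rw [Subgroup.mem_inf, Subgroup.mem_centralizer_iff]; rfl
  have hZc : IsMulCommutative ↥Z := ⟨⟨fun a b => by
    apply Subtype.ext
    exact ((hZmem b).mp b.2).2 a (hZK a.2)⟩⟩
  have hZnorm : ∀ e : Γ, (∀ k ∈ K, e * k * e⁻¹ ∈ K) → (∀ k ∈ K, e⁻¹ * k * e ∈ K) →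
      ∀ w ∈ Z, e * w * e⁻¹ ∈ Z := by
    intro e he he' w hw
    rw [hZmem] at hw ⊢
    refine ⟨he w hw.1, fun k hk => ?_⟩
    have := hw.2 _ (he' k hk)
    calc k * (e * w * e⁻¹) = e * ((e⁻¹ * k * e) * w) * e⁻¹ := by group
      _ = e * (w * (e⁻¹ * k * e)) * e⁻¹ := by rw [this]
      _ = e * w * e⁻¹ * k := by group
  let f : Monoid.End ↥Z := conjRes Z e₁ (hZnorm e₁ h₁ h₁')
  let g : Monoid.End ↥Z := conjRes Z e₂ (hZnorm e₂ h₂ h₂')
  have hcopZ : (Nat.card ↥Z).Coprime p :=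
    Nat.Coprime.coprime_dvd_left (Subgroup.card_dvd_of_le hZK) hcop
  have hfg : Commute f g := by
    show f * g = g * f
    ext w
    show e₁ * (e₂ * w * e₂⁻¹) * e₁⁻¹ = e₂ * (e₁ * w * e₁⁻¹) * e₂⁻¹
    have hc2 : e₁⁻¹ * e₂⁻¹ = e₂⁻¹ * e₁⁻¹ := by
      rw [← mul_inv_rev, ← mul_inv_rev, hcomm]
    calc e₁ * (e₂ * w * e₂⁻¹) * e₁⁻¹ = (e₁ * e₂) * w * (e₂⁻¹ * e₁⁻¹) := by group
      _ = (e₂ * e₁) * w * (e₁⁻¹ * e₂⁻¹) := by rw [hcomm, hc2]
      _ = e₂ * (e₁ * w * e₁⁻¹) * e₂⁻¹ := by group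
  have hfp : f ^ p = 1 := by
    ext w
    rw [conjRes_pow, he₁]; simp
  have hgp : g ^ p = 1 := by
    ext w
    rw [conjRes_pow, he₂]; simp
  have hall := abelian_rank_two hp hcopZ f g hfg hfp hgp (by
    intro i j hij w hw
    have hw' : e₁ ^ i * (e₂ ^ j * (w : Γ) * (e₂ ^ j)⁻¹) * (e₁ ^ i)⁻¹ = w := by
      have := congrArg Subtype.val hw
      rw [Monoid.End.coe_mul, Function.comp_apply, conjRes_pow, conjRes_pow] at this
      exact this
    apply Subtype.ext
    apply hcon' i j hij w (hZK w.2)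
    nth_rewrite 2 [← hw']; group)
  have hzZ : (z : Γ) ∈ Z := by
    rw [hZmem]
    refine ⟨z.2, fun k hk => ?_⟩
    have := (Subgroup.mem_center_iff.mp hz) ⟨k, hk⟩
    exact congrArg Subtype.val this
  have := hall ⟨(z : Γ), hzZ⟩
  have h3 : (z : Γ) = 1 := congrArg Subtype.val this
  apply hz1
  apply Subtype.ext
  apply Subtype.ext
  exact h3

section Count
variable {G : Type*} [Group G]

/-- The preimage in `G` of the centralizer of `gN` in `G/N`. -/
def camD (N : Subgroup G) [N.Normal] (g : G) : Subgroup G :=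
  (Subgroup.centralizer ({(QuotientGroup.mk g : G ⧸ N)} : Set (G ⧸ N))).comap (QuotientGroup.mk' N)

theorem mem_camD {N : Subgroup G} [hN : N.Normal] {g y : G} :
    y ∈ camD N g ↔ g⁻¹ * (y * g * y⁻¹) ∈ N := by
  unfold camD
  rw [Subgroup.mem_comap, Subgroup.mem_centralizer_iff]
  simp only [Set.mem_singleton_iff, forall_eq, QuotientGroup.mk'_apply]
  rw [← QuotientGroup.mk_mul, ← QuotientGroup.mk_mul, QuotientGroup.eq]
  have e1 : (g * y)⁻¹ * (y * g) = y⁻¹ * (g⁻¹ * y * g) := by group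
  have e2 : g⁻¹ * (y * g * y⁻¹) = (g⁻¹ * y * g) * y⁻¹ := by group
  rw [e1, e2]
  exact hN.mem_comm_iff

theorem le_camD (N : Subgroup G) [hN : N.Normal] (g : G) : N ≤ camD N g := by
  intro n hn
  rw [mem_camD]
  have : g⁻¹ * (n * g * n⁻¹) = (g⁻¹ * n * g⁻¹⁻¹) * n⁻¹ := by group
  rw [this]
  exact N.mul_mem (hN.conj_mem n hn g⁻¹) (N.inv_mem hn)

theorem centralizer_le_camD (N : Subgroup G) [hN : N.Normal] (g : G) :
    Subgroup.centralizer ({g} : Set G) ≤ camD N g := by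
  intro c hc
  rw [mem_camD]
  have h1 : g * c = c * g := by
    rw [Subgroup.mem_centralizer_iff] at hc
    exact hc g rfl
  have : g⁻¹ * (c * g * c⁻¹) = 1 := by
    rw [← h1]; group
  rw [this]; exact N.one_mem

theorem card_camD (N : Subgroup G) [hN : N.Normal] (g : G)
    (hcam : ∀ n ∈ N, ∃ x : G, x * g * x⁻¹ = g * n) :
    Nat.card (camD N g) = Nat.card N * Nat.card (Subgroup.centralizer ({g} : Set G)) := by
  classical
  rw [← Nat.card_prod]
  symm
  choose! rep hrep using hcam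
  have hrepD : ∀ n ∈ N, rep n ∈ camD N g := by
    intro n hn
    rw [mem_camD, hrep n hn]
    simpa using hn
  let F : ↥N × ↥(Subgroup.centralizer ({g} : Set G)) → ↥(camD N g) := fun x =>
    ⟨rep x.1 * x.2, (camD N g).mul_mem (hrepD x.1 x.1.2) (centralizer_le_camD N g x.2.2)⟩
  have hcent : ∀ c ∈ Subgroup.centralizer ({g} : Set G), c * g * c⁻¹ = g := by
    intro c hc
    rw [Subgroup.mem_centralizer_iff] at hc
    have := hc g rfl
    rw [← this]; group
  have hconj : ∀ (n : ↥N) (c : ↥(Subgroup.centralizer ({g} : Set G))),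
      (rep n * c) * g * (rep n * c)⁻¹ = g * n := by
    intro n c
    have : (rep n * c) * g * (rep n * c)⁻¹ = rep n * (c * g * (c : G)⁻¹) * (rep n)⁻¹ := by group
    rw [this, hcent c c.2, hrep n n.2]
  apply Nat.card_eq_of_bijective F
  constructor
  · rintro ⟨n, c⟩ ⟨n', c'⟩ h
    have h' : rep n * (c : G) = rep n' * c' := congrArg Subtype.val h
    have h1 := hconj n c
    rw [h', hconj n' c'] at h1
    have hn : n = n' := by
      apply Subtype.ext
      exact (mul_left_cancel h1).symm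
    subst hn
    have hc : c = c' := Subtype.ext (mul_left_cancel h')
    rw [hc]
  · rintro ⟨y, hy⟩
    rw [mem_camD] at hy
    let n : ↥N := ⟨g⁻¹ * (y * g * y⁻¹), hy⟩
    have hc : (rep n)⁻¹ * y ∈ Subgroup.centralizer ({g} : Set G) := by
      rw [Subgroup.mem_centralizer_iff]
      intro h hh
      rw [Set.mem_singleton_iff] at hh
      subst hh
      have h1 : rep n * h * (rep n)⁻¹ = y * h * y⁻¹ := by
        rw [hrep n n.2]
        show h * (h⁻¹ * (y * h * y⁻¹)) = _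
        group
      have h2 : h = (rep n)⁻¹ * (y * h * y⁻¹) * rep n := by
        rw [← h1]; group
      calc h * ((rep n)⁻¹ * y) = ((rep n)⁻¹ * (y * h * y⁻¹) * rep n) * ((rep n)⁻¹ * y) := by
            rw [← h2]
        _ = (rep n)⁻¹ * y * h := by group
    refine ⟨(n, ⟨(rep n)⁻¹ * y, hc⟩), ?_⟩
    apply Subtype.ext
    show rep n * ((rep n)⁻¹ * y) = y
    group

variable [Finite G]

theorem card_camD_inf_le (N : Subgroup G) [hN : N.Normal] (L : Subgroup G) (g : G) (hg : g ∈ L) :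
    Nat.card ↥(camD N g ⊓ L) ≤
      Nat.card ↥(N ⊓ L) * Nat.card ↥(Subgroup.centralizer ({g} : Set G) ⊓ L) := by
  classical
  rw [← Nat.card_prod]
  let κ : G → G := fun y => g⁻¹ * (y * g * y⁻¹)
  let rep : G → G := fun n => if h : ∃ y ∈ camD N g ⊓ L, κ y = n then Classical.choose h else 1
  have hrep : ∀ y ∈ camD N g ⊓ L, rep (κ y) ∈ camD N g ⊓ L ∧ κ (rep (κ y)) = κ y := by
    intro y hy
    have h : ∃ y' ∈ camD N g ⊓ L, κ y' = κ y := ⟨y, hy, rfl⟩
    have := Classical.choose_spec h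
    show (if h : ∃ y' ∈ camD N g ⊓ L, κ y' = κ y then Classical.choose h else 1) ∈ _ ∧
      κ (if h : ∃ y' ∈ camD N g ⊓ L, κ y' = κ y then Classical.choose h else 1) = κ y
    rw [dif_pos h]
    exact this
  have hκ : ∀ y y' : G, κ y' = κ y → y' * g * y'⁻¹ = y * g * y⁻¹ := by
    intro y y' h
    exact mul_left_cancel h
  have hmem1 : ∀ y ∈ camD N g ⊓ L, κ y ∈ N ⊓ L := by
    intro y hy
    refine ⟨mem_camD.mp hy.1, ?_⟩
    exact L.mul_mem (L.inv_mem hg) (L.mul_mem (L.mul_mem hy.2 hg) (L.inv_mem hy.2))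
  have hmem2 : ∀ y ∈ camD N g ⊓ L, (rep (κ y))⁻¹ * y ∈ Subgroup.centralizer ({g} : Set G) ⊓ L := by
    intro y hy
    obtain ⟨h1, h2⟩ := hrep y hy
    refine ⟨?_, L.mul_mem (L.inv_mem h1.2) hy.2⟩
    show (rep (κ y))⁻¹ * y ∈ Subgroup.centralizer ({g} : Set G)
    rw [Subgroup.mem_centralizer_iff]
    intro h hh
    rw [Set.mem_singleton_iff] at hh
    subst hh
    have h3 := hκ y _ h2
    have h4 : h = (rep (κ y))⁻¹ * (y * h * y⁻¹) * rep (κ y) := by
      rw [← h3]; group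
    calc h * ((rep (κ y))⁻¹ * y)
        = ((rep (κ y))⁻¹ * (y * h * y⁻¹) * rep (κ y)) * ((rep (κ y))⁻¹ * y) := by rw [← h4]
      _ = (rep (κ y))⁻¹ * y * h := by group
  let F : ↥(camD N g ⊓ L) → ↥(N ⊓ L) × ↥(Subgroup.centralizer ({g} : Set G) ⊓ L) := fun y =>
    (⟨κ y, hmem1 y y.2⟩, ⟨(rep (κ y))⁻¹ * y, hmem2 y y.2⟩)
  apply Nat.card_le_card_of_injective F
  intro y y' h
  have h1 : κ (y : G) = κ (y' : G) := congrArg (fun x => (x.1 : G)) h
  have h2 : (rep (κ (y : G)))⁻¹ * (y : G) = (rep (κ (y' : G)))⁻¹ * (y' : G) :=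
    congrArg (fun x => (x.2 : G)) h
  rw [h1] at h2
  exact Subtype.ext (mul_left_cancel h2)

omit [Finite G] in
theorem card_camD_mul (N : Subgroup G) [hN : N.Normal] (L : Subgroup G) (g : G)
    (hNL : ∀ x : G, ∃ n ∈ N, ∃ l ∈ L, x = n * l) :
    Nat.card ↥(camD N g) * Nat.card ↥(N ⊓ L) = Nat.card N * Nat.card ↥(camD N g ⊓ L) := by
  have hND := le_camD N g
  have hsup : (camD N g ⊓ L) ⊔ N = camD N g := by
    apply le_antisymm (sup_le inf_le_left hND)
    intro y hy
    obtain ⟨n, hn, l, hl, rfl⟩ := hNL y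
    have hlD : l ∈ camD N g := by
      have := (camD N g).mul_mem ((camD N g).inv_mem (hND hn)) hy
      simpa using this
    rw [sup_comm]
    exact Subgroup.mul_mem_sup hn ⟨hlD, hl⟩
  have h1 : N.relIndex (camD N g) = N.relIndex (camD N g ⊓ L) := by
    conv_lhs => rw [← hsup]
    exact Subgroup.relIndex_sup_right (camD N g ⊓ L) N
  have h2 : Nat.card N * N.relIndex (camD N g) = Nat.card ↥(camD N g) := by
    rw [← Subgroup.relIndex_bot_left, Subgroup.relIndex_mul_relIndex _ _ _ bot_le hND,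
      Subgroup.relIndex_bot_left]
  have h3 : N ⊓ (camD N g ⊓ L) = N ⊓ L := by
    rw [← inf_assoc, inf_eq_left.mpr hND]
  have h4 : Nat.card ↥(N ⊓ L) * N.relIndex (camD N g ⊓ L) = Nat.card ↥(camD N g ⊓ L) := by
    rw [← Subgroup.inf_relIndex_right, h3, ← Subgroup.relIndex_bot_left,
      Subgroup.relIndex_mul_relIndex _ _ _ bot_le (inf_le_inf_right L hND),
      Subgroup.relIndex_bot_left]
  rw [← h2, ← h4, h1]; ring

/-- In a Camina pair, the centralizer of an element outside `N` lies in every supplement of `N`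
containing the element. -/
theorem centralizer_le_of_supplement (N : Subgroup G) [hN : N.Normal] (L : Subgroup G) (g : G)
    (hg : g ∈ L) (hNL : ∀ x : G, ∃ n ∈ N, ∃ l ∈ L, x = n * l)
    (hcam : ∀ n ∈ N, ∃ x : G, x * g * x⁻¹ = g * n) :
    Subgroup.centralizer ({g} : Set G) ≤ L := by
  have h1 := card_camD N g hcam
  have h2 := card_camD_inf_le N L g hg
  have h3 := card_camD_mul N L g hNL
  have hNpos : 0 < Nat.card N := Nat.card_pos
  have hNLpos : 0 < Nat.card ↥(N ⊓ L) := Nat.card_pos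
  have h4 : Nat.card (Subgroup.centralizer ({g} : Set G)) ≤
      Nat.card ↥(Subgroup.centralizer ({g} : Set G) ⊓ L) := by
    rw [h1] at h3
    have : Nat.card N * (Nat.card (Subgroup.centralizer ({g} : Set G)) * Nat.card ↥(N ⊓ L))
        ≤ Nat.card N * (Nat.card ↥(N ⊓ L) * Nat.card ↥(Subgroup.centralizer ({g} : Set G) ⊓ L)) := by
      calc Nat.card N * (Nat.card (Subgroup.centralizer ({g} : Set G)) * Nat.card ↥(N ⊓ L))
          = Nat.card N * Nat.card ↥(camD N g ⊓ L) := by rw [← h3]; ring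
        _ ≤ _ := Nat.mul_le_mul_left _ h2
    have h5 := Nat.le_of_mul_le_mul_left this hNpos
    rw [mul_comm] at h5
    exact Nat.le_of_mul_le_mul_left h5 hNLpos
  have h5 := Subgroup.eq_of_le_of_card_ge (inf_le_left :
    Subgroup.centralizer ({g} : Set G) ⊓ L ≤ Subgroup.centralizer ({g} : Set G)) h4
  rw [← h5]; exact inf_le_right

end Count

theorem exists_big_or_rank_two {Γ : Type*} [Group Γ] [Finite Γ] {p : ℕ} [hp : Fact p.Prime] (γ : Γ)
    (hγ : ∀ x : Γ, x * γ = γ * x) (a : ℕ) (ha : 0 < a) (hord : orderOf γ = p ^ a)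
    (hdvd : p ^ (a + 1) ∣ Nat.card Γ) :
    ∃ K : Subgroup Γ, IsPGroup p K ∧
      ((∃ t ∈ K, orderOf γ < orderOf t) ∨
       (∃ e₁ ∈ K, ∃ e₂ ∈ K, e₁ * e₂ = e₂ * e₁ ∧ e₁ ^ p = 1 ∧ e₂ ^ p = 1 ∧
          ∀ i j : ℕ, e₁ ^ i * e₂ ^ j = 1 → p ∣ i ∧ p ∣ j)) := by
  have hp' := hp.out
  let H : Subgroup Γ := Subgroup.zpowers γ
  have hH : Nat.card H = p ^ a := by rw [Nat.card_zpowers, hord]
  obtain ⟨K, hK, hHK⟩ := Sylow.exists_subgroup_card_pow_succ hdvd hH
  have hKp : IsPGroup p K := IsPGroup.of_card hK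
  refine ⟨K, hKp, ?_⟩
  have hγK : γ ∈ K := hHK (Subgroup.mem_zpowers γ)
  -- an element of K outside H
  have hne : ∃ t ∈ K, t ∉ H := by
    by_contra hcon
    push Not at hcon
    have hle : K ≤ H := hcon
    have := Subgroup.card_le_of_le hle
    rw [hK, hH] at this
    have h2 : p ^ a < p ^ (a + 1) := Nat.pow_lt_pow_right hp'.one_lt (Nat.lt_succ_self a)
    omega
  obtain ⟨t₀, ht₀K, ht₀H⟩ := hne
  -- the least k with t₀^(p^k) ∈ H
  have hex : ∃ k : ℕ, t₀ ^ (p ^ k) ∈ H := by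
    refine ⟨a + 1, ?_⟩
    have : t₀ ^ (p ^ (a + 1)) = 1 := by
      have h1 : (⟨t₀, ht₀K⟩ : ↥K) ^ (p ^ (a + 1)) = 1 := by
        rw [← hK]; exact pow_card_eq_one'
      exact congrArg Subtype.val h1
    rw [this]; exact H.one_mem
  classical
  let k := Nat.find hex
  have hk : t₀ ^ (p ^ k) ∈ H := Nat.find_spec hex
  have hk0 : k ≠ 0 := by
    intro h0
    rw [h0, pow_zero, pow_one] at hk
    exact ht₀H hk
  obtain ⟨k', hk'⟩ := Nat.exists_eq_succ_of_ne_zero hk0
  let t := t₀ ^ (p ^ k')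
  have htK : t ∈ K := K.pow_mem ht₀K _
  have htH : t ∉ H := by
    intro h
    have := Nat.find_min hex (m := k') (by omega)
    exact this h
  have htp : t ^ p ∈ H := by
    show (t₀ ^ (p ^ k')) ^ p ∈ H
    rw [← pow_mul, ← pow_succ, ← Nat.succ_eq_add_one, ← hk']
    exact hk
  obtain ⟨m, hm⟩ : ∃ m : ℕ, γ ^ m = t ^ p := by
    have := (mem_powers_iff_mem_zpowers (x := γ) (y := t ^ p)).mpr htp
    exact (Submonoid.mem_powers_iff _ _).mp this
  by_cases hpm : p ∣ m
  · right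
    obtain ⟨m', rfl⟩ := hpm
    let e₁ := γ ^ (p ^ (a - 1))
    let e₂ := t * (γ ^ m')⁻¹
    have hcomm_t : ∀ n : ℕ, t * (γ ^ n)⁻¹ = (γ ^ n)⁻¹ * t := by
      intro n
      have h1 : Commute t γ := hγ t
      exact (h1.pow_right n).inv_right.eq
    have he₂K : e₂ ∈ K := K.mul_mem htK (K.inv_mem (K.pow_mem hγK _))
    have he₂H : e₂ ∉ H := by
      intro h
      apply htH
      have : t = e₂ * γ ^ m' := by simp [e₂]
      rw [this]
      exact H.mul_mem h (H.pow_mem (Subgroup.mem_zpowers γ) _)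
    have he₂p : e₂ ^ p = 1 := by
      have h1 : Commute t (γ ^ m')⁻¹ := hcomm_t m'
      show (t * (γ ^ m')⁻¹) ^ p = 1
      rw [h1.mul_pow, ← hm, inv_pow, ← pow_mul, mul_comm m' p, mul_inv_cancel]
    have he₁p : e₁ ^ p = 1 := by
      show (γ ^ (p ^ (a - 1))) ^ p = 1
      rw [← pow_mul, ← pow_succ, Nat.sub_add_cancel ha, ← hord, pow_orderOf_eq_one]
    have he₁ord : orderOf e₁ = p := by
      apply orderOf_eq_prime he₁p
      intro h1
      have h2 : orderOf γ ∣ p ^ (a - 1) := orderOf_dvd_of_pow_eq_one h1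
      rw [hord] at h2
      have h3 := Nat.le_of_dvd (pow_pos hp'.pos _) h2
      have h4 : p ^ (a - 1) < p ^ a := Nat.pow_lt_pow_right hp'.one_lt (by omega)
      omega
    refine ⟨e₁, K.pow_mem hγK _, e₂, he₂K, ?_, he₁p, he₂p, ?_⟩
    · have h1 : Commute e₂ γ := hγ e₂
      exact (h1.pow_right _).eq.symm
    · intro i j hij
      have hj : p ∣ j := by
        by_contra hj
        have hcop : Nat.Coprime j p := (Nat.Prime.coprime_iff_not_dvd hp').mpr hj |>.symm
        have h1 : e₂ ^ j ∈ H := by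
          have : e₂ ^ j = (e₁ ^ i)⁻¹ := by
            rw [eq_inv_iff_mul_eq_one, mul_comm] at *
            · have hc : Commute e₁ e₂ := by
                have h1 : Commute e₂ γ := hγ e₂
                exact (h1.pow_right _).symm
              rw [← (hc.pow_pow i j).eq]; exact hij
          rw [this]
          exact H.inv_mem (H.pow_mem (H.pow_mem (Subgroup.mem_zpowers γ) _) _)
        apply he₂H
        have h2 : orderOf e₂ ∣ p := orderOf_dvd_of_pow_eq_one he₂p
        have h3 : Nat.Coprime j (orderOf e₂) := Nat.Coprime.coprime_dvd_right h2 hcop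
        obtain ⟨u, hu⟩ := exists_pow_eq_self_of_coprime h3
        rw [← hu]
        exact H.pow_mem h1 u
      refine ⟨?_, hj⟩
      obtain ⟨j', rfl⟩ := hj
      rw [pow_mul, he₂p, one_pow, mul_one] at hij
      rw [← he₁ord]
      exact orderOf_dvd_of_pow_eq_one hij
  · left
    refine ⟨t, htK, ?_⟩
    have hcop : Nat.Coprime m (p ^ a) :=
      Nat.Coprime.pow_right a ((Nat.Prime.coprime_iff_not_dvd hp').mpr hpm).symm
    have h1 : γ ∈ Subgroup.zpowers t := by
      obtain ⟨u, hu⟩ := exists_pow_eq_self_of_coprime (x := γ) (n := m) (by rw [hord]; exact hcop)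
      rw [hm] at hu
      rw [← hu]
      exact Subgroup.pow_mem _ (Subgroup.pow_mem _ (Subgroup.mem_zpowers t) p) u
    have h2 : H ≤ Subgroup.zpowers t := Subgroup.zpowers_le.mpr h1
    by_contra h3
    rw [not_lt, ← Nat.card_zpowers, ← Nat.card_zpowers] at h3
    have h4 := Subgroup.eq_of_le_of_card_ge h2 h3
    apply htH
    rw [h4]; exact Subgroup.mem_zpowers t

section Basic
variable {G : Type*} [Group G]

theorem card_mul_relIndex {H K : Subgroup G} (h : H ≤ K) :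
    Nat.card H * H.relIndex K = Nat.card K := by
  rw [← Subgroup.relIndex_bot_left, Subgroup.relIndex_mul_relIndex _ _ _ bot_le h,
    Subgroup.relIndex_bot_left]

/-- In a finite `p`-group, a nontrivial normal subgroup contains a nontrivial central element. -/
theorem exists_central_of_normal' [Finite G] {p : ℕ} [Fact p.Prime]
    (hG : IsPGroup p G) (N : Subgroup G) [N.Normal] (hN : N ≠ ⊥) :
    ∃ z ∈ N, z ≠ 1 ∧ ∀ g : G, g * z = z * g := by
  letI : MulAction G N := MulAction.compHom N (MulAut.conjNormal : G →* MulAut N)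
  have hsmul : ∀ (g : G) (x : N), ((g • x : N) : G) = g * x * g⁻¹ := fun g x => rfl
  have hdvd : p ∣ Nat.card N := by
    rcases (hG.to_subgroup N).card_eq_or_dvd with h | h
    · exact absurd ((Subgroup.card_eq_one).mp h) hN
    · exact h
  have h1 : (1 : N) ∈ MulAction.fixedPoints G N := by
    intro g
    apply Subtype.ext
    rw [hsmul]
    simp
  obtain ⟨b, hb, hb1⟩ := hG.exists_fixed_point_of_prime_dvd_card_of_fixed_point N hdvd h1
  refine ⟨b, b.2, fun h => hb1 (Subtype.ext h.symm), fun g => ?_⟩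
  have := congrArg Subtype.val (hb g)
  rw [hsmul] at this
  calc g * b = g * b * g⁻¹ * g := by group
    _ = b * g := by rw [this]

variable [Finite G]

/-- The intersection of a Sylow `p`-subgroup with a normal subgroup has `p'`-index there. -/
theorem sylow_inf_normal {p : ℕ} [Fact p.Prime] (P : Sylow p G) (N : Subgroup G) [N.Normal] :
    ¬ p ∣ ((P : Subgroup G) ⊓ N).relIndex N := by
  have h1 : Nat.card N * N.relIndex (P : Subgroup G) = Nat.card ↥((P : Subgroup G) ⊔ N) := by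
    rw [← Subgroup.relIndex_sup_right (P : Subgroup G) N]
    exact card_mul_relIndex le_sup_right
  have h2 : Nat.card ↥((P : Subgroup G) ⊓ N) * N.relIndex (P : Subgroup G) = Nat.card (P : Subgroup G) := by
    rw [← Subgroup.inf_relIndex_left]
    exact card_mul_relIndex inf_le_left
  have h3 : Nat.card ↥((P : Subgroup G) ⊓ N) * ((P : Subgroup G) ⊓ N).relIndex N = Nat.card N :=
    card_mul_relIndex inf_le_right
  have h4 : Nat.card (P : Subgroup G) * (P : Subgroup G).relIndex ((P : Subgroup G) ⊔ N)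
      = Nat.card ↥((P : Subgroup G) ⊔ N) := card_mul_relIndex le_sup_left
  have h5 : ((P : Subgroup G) ⊓ N).relIndex N = (P : Subgroup G).relIndex ((P : Subgroup G) ⊔ N) := by
    have hpos1 : 0 < Nat.card ↥((P : Subgroup G) ⊓ N) := Nat.card_pos
    have hpos2 : 0 < N.relIndex (P : Subgroup G) := by
      rcases Nat.eq_zero_or_pos (N.relIndex (P : Subgroup G)) with h | h
      · rw [h, mul_zero] at h2
        exact absurd h2.symm (Nat.card_pos).ne'
      · exact h
    have e : Nat.card ↥((P : Subgroup G) ⊓ N) * N.relIndex (P : Subgroup G) *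
          (Nat.card ↥((P : Subgroup G) ⊓ N) * ((P : Subgroup G) ⊓ N).relIndex N)
        = Nat.card ↥((P : Subgroup G) ⊓ N) * N.relIndex (P : Subgroup G) *
          (Nat.card ↥((P : Subgroup G) ⊓ N) * (P : Subgroup G).relIndex ((P : Subgroup G) ⊔ N)) := by
      rw [h3, h2]
      calc Nat.card (P : Subgroup G) * Nat.card N
          = Nat.card (P : Subgroup G) * (Nat.card ↥((P : Subgroup G) ⊓ N) * ((P : Subgroup G) ⊓ N).relIndex N) := by rw [h3]
        _ = Nat.card ↥((P : Subgroup G) ⊓ N) * (Nat.card N * N.relIndex (P : Subgroup G)) := by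
            rw [← h2, h3]; ring
        _ = Nat.card ↥((P : Subgroup G) ⊓ N) * (Nat.card (P : Subgroup G) * (P : Subgroup G).relIndex ((P : Subgroup G) ⊔ N)) := by
            rw [h1, h4]
        _ = _ := by ring
    have e2 := Nat.eq_of_mul_eq_mul_left (Nat.mul_pos hpos1 hpos2) e
    exact Nat.eq_of_mul_eq_mul_left hpos1 e2
  rw [h5]
  intro h
  exact P.not_dvd_index (h.trans (Subgroup.relIndex_dvd_index_of_le le_sup_left))

end Basic

section Main
variable {G : Type*} [Group G] [Finite G] (N : Subgroup G) [hN : N.Normal]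

omit [Finite G] hN in
/-- In a Camina pair, an element of `N` commuting with `g ∉ N` has order dividing that of `g`. -/
theorem pow_orderOf_eq_one_of_comm
    (hcam : ∀ g : G, g ∉ N → ∀ n ∈ N, ∃ x : G, x * g * x⁻¹ = g * n)
    {g c : G} (hg : g ∉ N) (hc : c ∈ N) (hgc : g * c = c * g) : c ^ orderOf g = 1 := by
  obtain ⟨x, hx⟩ := hcam g hg c hc
  have h1 : orderOf g = orderOf (g * c) := by
    apply SemiconjBy.orderOf_eq x
    show x * g = g * c * x
    rw [← hx]; group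
  have h2 : (g * c) ^ orderOf g = 1 := by rw [h1]; exact pow_orderOf_eq_one _
  have hcomm : Commute g c := hgc
  rw [hcomm.mul_pow, pow_orderOf_eq_one, one_mul] at h2
  exact h2

/-- Case of a self-normalizing Sylow `p`-subgroup of `N`: if another prime divides the index of `N`
then `N` is a `p`-group. -/
theorem le_of_self_normalizing
    (hcam : ∀ g : G, g ∉ N → ∀ n ∈ N, ∃ x : G, x * g * x⁻¹ = g * n)
    {p q : ℕ} [hp : Fact p.Prime] [hq : Fact q.Prime] (hpq : q ≠ p) (hqN : q ∣ N.index)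
    (S : Subgroup G) (hSN : S ≤ N) (hS : IsPGroup p S) (hSyl : ¬ p ∣ S.relIndex N)
    (hself : N ⊓ Subgroup.normalizer (S : Set G) ≤ S) : N ≤ S := by
  by_cases hNbot : N = ⊥
  · rw [hNbot]; exact bot_le
  set L := Subgroup.normalizer (S : Set G) with hL
  -- Frattini argument
  have hNL : ∀ x : G, ∃ n ∈ N, ∃ l ∈ L, x = n * l := by
    have hS' : IsPGroup p (S.subgroupOf N) := hS.comap_subtype
    obtain ⟨P, hP⟩ : ∃ P : Sylow p N, (P : Subgroup N) = S.subgroupOf N :=
      ⟨hS'.toSylow hSyl, IsPGroup.toSylow_coe _ _⟩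
    have h1 := Sylow.normalizer_sup_eq_top P
    have h2 : ((P : Subgroup N).map N.subtype) = S := by
      rw [hP, Subgroup.subgroupOf_map_subtype, inf_of_le_left hSN]
    rw [h2] at h1
    intro x
    have hx : x ∈ N ⊔ L := by rw [sup_comm, hL, h1]; trivial
    rw [← SetLike.mem_coe, Subgroup.normal_mul] at hx
    obtain ⟨n, hn, l, hl, rfl⟩ := hx
    exact ⟨n, hn, l, hl, rfl⟩
  -- a q-element of L outside N
  have hqQ : q ∣ Nat.card (G ⧸ N) := hqN
  obtain ⟨hbar, hhbar⟩ := exists_prime_orderOf_dvd_card' q hqQ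
  obtain ⟨x, rfl⟩ := QuotientGroup.mk_surjective hbar
  obtain ⟨n, hn, l, hl, rfl⟩ := hNL x
  have hml : orderOf (l : G ⧸ N) = q := by
    rw [← hhbar, QuotientGroup.mk_mul, (QuotientGroup.eq_one_iff n).mpr hn, one_mul]
  obtain ⟨b, k, hk, hlk⟩ := Nat.exists_eq_pow_mul_and_not_dvd (orderOf_pos l).ne' q hq.out.ne_one
  have hhL : l ^ k ∈ L := L.pow_mem hl k
  have hhq : (l ^ k) ^ (q ^ b) = 1 := by
    rw [← pow_mul, mul_comm, ← hlk, pow_orderOf_eq_one]
  have hhN : l ^ k ∉ N := by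
    intro h
    have h1 : (l : G ⧸ N) ^ k = 1 := by
      rw [← QuotientGroup.mk_pow]; exact (QuotientGroup.eq_one_iff _).mpr h
    have := orderOf_dvd_of_pow_eq_one h1
    rw [hml] at this
    exact hk this
  -- q-elements of L outside N act without fixed points on N
  have key : ∀ h' ∈ L, h' ∉ N → (∃ j : ℕ, h' ^ (q ^ j) = 1) → ∀ c ∈ N, h' * c = c * h' → c = 1 := by
    rintro h' hh'L hh'N ⟨j, hj⟩ c hc hcomm
    have h1 := centralizer_le_of_supplement N L h' hh'L hNL (hcam h' hh'N)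
    have hcL : c ∈ L := by
      apply h1
      rw [Subgroup.mem_centralizer_iff]
      intro y hy
      rw [Set.mem_singleton_iff] at hy
      subst hy
      exact hcomm
    have hcS : c ∈ S := hself ⟨hc, hcL⟩
    have h2 : c ^ orderOf h' = 1 := pow_orderOf_eq_one_of_comm N hcam hh'N hc hcomm
    obtain ⟨i, hi⟩ := hS ⟨c, hcS⟩
    have h3 : orderOf c ∣ p ^ i := orderOf_dvd_of_pow_eq_one (congrArg Subtype.val hi)
    have h4 : orderOf c ∣ q ^ j :=
      (orderOf_dvd_of_pow_eq_one h2).trans (orderOf_dvd_of_pow_eq_one hj)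
    have h5 : orderOf c ∣ 1 := by
      have := Nat.dvd_gcd h3 h4
      rwa [Nat.Coprime.pow i j ((Nat.coprime_primes hp.out hq.out).mpr hpq.symm)] at this
    exact orderOf_eq_one_iff.mp (Nat.dvd_one.mp h5)
  -- an element of order q
  set h := l ^ k with hh
  obtain ⟨b', hb'le, hb'⟩ := (Nat.dvd_prime_pow hq.out).mp (orderOf_dvd_of_pow_eq_one hhq)
  have hb'0 : b' ≠ 0 := by
    intro h0
    rw [h0, pow_zero, orderOf_eq_one_iff] at hb'
    apply hhN
    rw [hb']; exact N.one_mem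
  set h₁ := h ^ (q ^ (b' - 1)) with hh₁
  have hh₁q : h₁ ^ q = 1 := by
    rw [hh₁, ← pow_mul, ← pow_succ, Nat.sub_add_cancel (Nat.pos_of_ne_zero hb'0), ← hb',
      pow_orderOf_eq_one]
  have hh₁1 : h₁ ≠ 1 := by
    intro h1
    have h2 : orderOf h ∣ q ^ (b' - 1) := orderOf_dvd_of_pow_eq_one h1
    rw [hb'] at h2
    have h3 := Nat.le_of_dvd (pow_pos hq.out.pos _) h2
    have h4 : q ^ (b' - 1) < q ^ b' := Nat.pow_lt_pow_right hq.out.one_lt (by omega)
    omega
  have hh₁L : h₁ ∈ L := L.pow_mem hhL _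
  have hh₁N : h₁ ∉ N := by
    intro h1
    apply hh₁1
    apply key h hhL hhN ⟨b, hhq⟩ h₁ h1
    rw [hh₁, ← pow_succ', ← pow_succ]
  -- the fixed-point-free automorphism
  let φ : ↥N ≃* ↥N := MulAut.conjNormal h₁
  have hφfpf : MonoidHom.FixedPointFree (φ : ↥N →* ↥N) := by
    intro n hn
    have hn' : h₁ * (n : G) * h₁⁻¹ = n := by
      have := congrArg Subtype.val hn
      exact this
    apply Subtype.ext
    apply key h₁ hh₁L hh₁N ⟨1, by rw [pow_one]; exact hh₁q⟩ n n.2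
    nth_rewrite 2 [← hn']; group
  have hNnt : Nontrivial ↥N := (Subgroup.nontrivial_iff_ne_bot N).mpr hNbot
  have hφord : orderOf φ = q := by
    apply orderOf_eq_prime
    · show (MulAut.conjNormal h₁ : MulAut ↥N) ^ q = 1
      rw [← map_pow, hh₁q, map_one]
    · intro h1
      obtain ⟨n, hn⟩ := exists_ne (1 : ↥N)
      apply hn
      apply hφfpf
      show φ n = n
      rw [h1]; rfl
  have hnil : Group.IsNilpotent ↥N := Cfsg.Agent.S0033.result φ hφfpf q hq.out hφord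
  have hnc : NormalizerCondition ↥N :=
    ((Group.isNilpotent_of_finite_tfae (G := ↥N)).out 0 1).mp hnil
  by_cases htop : S.subgroupOf N = ⊤
  · exact Subgroup.subgroupOf_eq_top.mp htop
  · exfalso
    have hlt := hnc (S.subgroupOf N) (lt_top_iff_ne_top.mpr htop)
    obtain ⟨x, hx, hxS⟩ := SetLike.exists_of_lt hlt
    apply hxS
    rw [Subgroup.mem_subgroupOf]
    apply hself
    refine ⟨x.2, ?_⟩
    show (x : G) ∈ Subgroup.normalizer (S : Set G)
    rw [Subgroup.mem_normalizer_iff]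
    rw [Subgroup.mem_normalizer_iff] at hx
    intro g
    constructor
    · intro hg
      have := (hx ⟨g, hSN hg⟩).mp (by rw [Subgroup.mem_subgroupOf]; exact hg)
      rw [Subgroup.mem_subgroupOf] at this
      exact this
    · intro hg
      have hgN : g ∈ N := by
        have h1 := hSN hg
        have h2 : g = (x : G)⁻¹ * ((x : G) * g * (x : G)⁻¹) * (x : G) := by group
        rw [h2]
        exact N.mul_mem (N.mul_mem (N.inv_mem x.2) h1) x.2
      have := (hx ⟨g, hgN⟩).mpr (by rw [Subgroup.mem_subgroupOf]; exact hg)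
      rw [Subgroup.mem_subgroupOf] at this
      exact this

/-- Case where no Sylow `p`-subgroup of `N` is self-normalizing in `N`: impossible when `p`
divides both the order and the index of `N`. -/
theorem false_of_not_self_normalizing
    (hcam : ∀ g : G, g ∉ N → ∀ n ∈ N, ∃ x : G, x * g * x⁻¹ = g * n)
    {p : ℕ} [hp : Fact p.Prime] (g₀ : G) (hg₀N : g₀ ∉ N) (hg₀ : ∃ k : ℕ, g₀ ^ (p ^ k) = 1)
    (hpN : p ∣ Nat.card N)
    (hall : ∀ S : Subgroup G, S ≤ N → IsPGroup p S → ¬ p ∣ S.relIndex N →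
      ¬ (N ⊓ Subgroup.normalizer (S : Set G) ≤ S)) : False := by
  classical
  let A : Set G := {g | g ∉ N ∧ ∃ k : ℕ, g ^ (p ^ k) = 1}
  obtain ⟨g, ⟨hgN, k, hgk⟩, hmax⟩ := Set.exists_max_image A (fun g => orderOf (g : G ⧸ N))
    (Set.toFinite A) ⟨g₀, hg₀N, hg₀⟩
  have hgb1 : (g : G ⧸ N) ≠ 1 := fun h => hgN ((QuotientGroup.eq_one_iff g).mp h)
  have hgbk : (g : G ⧸ N) ^ (p ^ k) = 1 := by
    rw [← QuotientGroup.mk_pow, hgk]; rfl
  obtain ⟨a, hak, ha⟩ := (Nat.dvd_prime_pow hp.out).mp (orderOf_dvd_of_pow_eq_one hgbk)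
  have ha0 : 0 < a := by
    rcases Nat.eq_zero_or_pos a with h | h
    · rw [h, pow_zero, orderOf_eq_one_iff] at ha; exact absurd ha hgb1
    · exact h
  -- a Sylow p-subgroup of G containing g
  have hgp : IsPGroup p (Subgroup.zpowers g) := by
    obtain ⟨j, _, hj⟩ := (Nat.dvd_prime_pow hp.out).mp (orderOf_dvd_of_pow_eq_one hgk)
    apply IsPGroup.of_card (n := j)
    rw [Nat.card_zpowers, hj]
  obtain ⟨P₀, hP₀⟩ := hgp.exists_le_sylow
  have hgP₀ : g ∈ (P₀ : Subgroup G) := hP₀ (Subgroup.mem_zpowers g)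
  -- a nontrivial element of N centralizing g
  have hz : ∃ z ∈ N, z ≠ 1 ∧ g * z = z * g ∧ ∃ j : ℕ, z ^ (p ^ j) = 1 := by
    have hne : N.subgroupOf (P₀ : Subgroup G) ≠ ⊥ := by
      intro h
      rw [Subgroup.subgroupOf_eq_bot, disjoint_iff] at h
      have h1 := card_mul_relIndex (inf_le_right : (P₀ : Subgroup G) ⊓ N ≤ N)
      rw [inf_comm, h, Subgroup.card_bot, one_mul] at h1
      have h2 := sylow_inf_normal P₀ N
      rw [inf_comm, h, h1] at h2
      exact h2 hpN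
    obtain ⟨z, hzN, hz1, hzc⟩ := exists_central_of_normal' P₀.isPGroup' (N.subgroupOf (P₀ : Subgroup G)) hne
    refine ⟨(z : G), Subgroup.mem_subgroupOf.mp hzN, fun h => hz1 (Subtype.ext h), ?_, ?_⟩
    · exact congrArg Subtype.val (hzc ⟨g, hgP₀⟩)
    · obtain ⟨j, hj⟩ := P₀.isPGroup' z
      exact ⟨j, congrArg Subtype.val hj⟩
  obtain ⟨z, hzN, hz1, hzg, jz, hzj⟩ := hz
  -- the centralizers
  set gb : G ⧸ N := (g : G ⧸ N) with hgb
  set Cb : Subgroup (G ⧸ N) := Subgroup.centralizer ({gb} : Set (G ⧸ N)) with hCb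
  set C : Subgroup G := Subgroup.centralizer ({g} : Set G) with hC
  have hgC : g ∈ C := by
    rw [hC, Subgroup.mem_centralizer_iff]
    intro y hy
    rw [Set.mem_singleton_iff] at hy
    rw [hy]
  have hcard : Nat.card Cb = Nat.card C := by
    have h1 := card_camD N g (hcam g hgN)
    have h2 : Nat.card N * N.relIndex (camD N g) = Nat.card (camD N g) :=
      card_mul_relIndex (le_camD N g)
    have h3 : N.relIndex (camD N g) = Nat.card Cb := by
      have := Subgroup.relIndex_ker (camD N g) (QuotientGroup.mk' N)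
      rw [QuotientGroup.ker_mk'] at this
      rw [this]
      unfold camD
      rw [Subgroup.map_comap_eq_self_of_surjective (QuotientGroup.mk'_surjective N)]
    rw [h3, h1] at h2
    exact Nat.eq_of_mul_eq_mul_left Nat.card_pos h2
  have hdvd : p ^ (a + 1) ∣ Nat.card Cb := by
    rw [hcard]
    have h1 : Nat.card ↥(N ⊓ C) * N.relIndex C = Nat.card C := by
      rw [← Subgroup.inf_relIndex_right]; exact card_mul_relIndex inf_le_right
    have h2 : N.relIndex C = Nat.card (C.map (QuotientGroup.mk' N)) := by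
      have := Subgroup.relIndex_ker C (QuotientGroup.mk' N)
      rwa [QuotientGroup.ker_mk'] at this
    have h3 : p ^ a ∣ Nat.card (C.map (QuotientGroup.mk' N)) := by
      rw [← ha, ← Nat.card_zpowers]
      apply Subgroup.card_dvd_of_le
      rw [Subgroup.zpowers_le]
      exact Subgroup.mem_map_of_mem _ hgC
    have h4 : p ∣ Nat.card ↥(N ⊓ C) := by
      have hzC : z ∈ N ⊓ C := by
        refine ⟨hzN, ?_⟩
        show z ∈ Subgroup.centralizer ({g} : Set G)
        rw [Subgroup.mem_centralizer_iff]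
        intro y hy
        rw [Set.mem_singleton_iff] at hy
        rw [hy]; exact hzg
      have h5 : orderOf z ∣ Nat.card ↥(N ⊓ C) := Subgroup.orderOf_dvd_natCard _ hzC
      obtain ⟨j', _, hj'⟩ := (Nat.dvd_prime_pow hp.out).mp (orderOf_dvd_of_pow_eq_one hzj)
      have hj'0 : j' ≠ 0 := by
        intro h0
        rw [h0, pow_zero, orderOf_eq_one_iff] at hj'
        exact hz1 hj'
      rw [hj'] at h5
      exact (dvd_pow_self p hj'0).trans h5
    rw [← h1, h2, pow_succ']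
    exact Nat.mul_dvd_mul h4 h3
  -- rank two or a bigger element, inside the centralizer of the image of g
  have hgbCb : gb ∈ Cb := by
    rw [hCb, Subgroup.mem_centralizer_iff]
    intro y hy
    rw [Set.mem_singleton_iff] at hy
    rw [hy]
  let γ : ↥Cb := ⟨gb, hgbCb⟩
  have hγc : ∀ x : ↥Cb, x * γ = γ * x := by
    intro x
    apply Subtype.ext
    have := (Subgroup.mem_centralizer_iff.mp x.2) gb rfl
    exact this.symm
  have hγord : orderOf γ = p ^ a := by
    rw [← ha]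
    exact Subgroup.orderOf_mk gb hgbCb
  obtain ⟨K₀, hK₀, hcase⟩ := exists_big_or_rank_two γ hγc a ha0 hγord hdvd
  have hKb : IsPGroup p (K₀.map Cb.subtype) := hK₀.map _
  obtain ⟨Pb, hPb⟩ := hKb.exists_le_sylow
  obtain ⟨P', hP'⟩ := Sylow.mapSurjective_surjective (QuotientGroup.mk'_surjective N) p Pb
  have hlift : ∀ e : ↥Cb, e ∈ K₀ → ∃ e' ∈ (P' : Subgroup G), (e' : G ⧸ N) = (e : G ⧸ N) := by
    intro e he
    have h1 : (e : G ⧸ N) ∈ (Pb : Subgroup (G ⧸ N)) := hPb (Subgroup.mem_map_of_mem _ he)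
    rw [← hP', Sylow.coe_mapSurjective] at h1
    obtain ⟨e', he', h2⟩ := Subgroup.mem_map.mp h1
    exact ⟨e', he', h2⟩
  have hP'p : ∀ x ∈ (P' : Subgroup G), ∃ c : ℕ, x ^ (p ^ c) = 1 := by
    intro x hx
    obtain ⟨c, hc⟩ := P'.isPGroup' ⟨x, hx⟩
    exact ⟨c, congrArg Subtype.val hc⟩
  rcases hcase with ⟨t, htK, htord⟩ | ⟨e₁, he₁K, e₂, he₂K, hcomm, he₁p, he₂p, hind⟩
  · obtain ⟨t', ht'P, ht'⟩ := hlift t htK
    have hto : orderOf (t' : G ⧸ N) = orderOf t := by
      rw [ht']; exact Subgroup.orderOf_coe t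
    have ht'A : t' ∈ A := by
      refine ⟨fun h => ?_, hP'p t' ht'P⟩
      have h1 : (t' : G ⧸ N) = 1 := (QuotientGroup.eq_one_iff t').mpr h
      rw [h1, orderOf_one] at hto
      rw [← hto, hγord] at htord
      have := pow_pos hp.out.pos a
      omega
    have h1 := hmax t' ht'A
    have h2 : orderOf (t' : G ⧸ N) ≤ orderOf gb := h1
    rw [hto, ha, ← hγord] at h2
    omega
  · obtain ⟨e₁', he₁'P, he₁'⟩ := hlift e₁ he₁K
    obtain ⟨e₂', he₂'P, he₂'⟩ := hlift e₂ he₂K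
    set S₁ : Subgroup G := (P' : Subgroup G) ⊓ N with hS₁
    have hS₁N : S₁ ≤ N := inf_le_right
    have hS₁p : IsPGroup p S₁ := P'.isPGroup'.to_le inf_le_left
    have hS₁syl : ¬ p ∣ S₁.relIndex N := sylow_inf_normal P' N
    have hnot := hall S₁ hS₁N hS₁p hS₁syl
    set L₁ : Subgroup G := Subgroup.normalizer (S₁ : Set G) with hL₁
    have hPL : (P' : Subgroup G) ≤ L₁ := by
      intro x hx
      show x ∈ Subgroup.normalizer (S₁ : Set G)
      rw [Subgroup.mem_normalizer_iff]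
      intro y
      constructor
      · rintro ⟨hy1, hy2⟩
        exact ⟨(P' : Subgroup G).mul_mem ((P' : Subgroup G).mul_mem hx hy1)
          ((P' : Subgroup G).inv_mem hx), hN.conj_mem y hy2 x⟩
      · rintro ⟨hy1, hy2⟩
        have e : y = x⁻¹ * (x * y * x⁻¹) * x := by group
        rw [e]
        refine ⟨(P' : Subgroup G).mul_mem ((P' : Subgroup G).mul_mem
          ((P' : Subgroup G).inv_mem hx) hy1) hx, ?_⟩
        have := hN.conj_mem _ hy2 x⁻¹
        rwa [inv_inv] at this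
    have hS₁L : S₁ ≤ L₁ := inf_le_left.trans hPL
    -- the quotient of the normalizer of S₁ by S₁
    let π : ↥L₁ →* ↥L₁ ⧸ S₁.subgroupOf L₁ := QuotientGroup.mk' (S₁.subgroupOf L₁)
    have hπ1 : ∀ x : ↥L₁, π x = 1 ↔ (x : G) ∈ S₁ := by
      intro x
      rw [QuotientGroup.mk'_apply, QuotientGroup.eq_one_iff, Subgroup.mem_subgroupOf]
    let K : Subgroup (↥L₁ ⧸ S₁.subgroupOf L₁) := ((N ⊓ L₁).subgroupOf L₁).map π
    have hKmem : ∀ κ ∈ K, ∃ b : G, ∃ hb : b ∈ L₁, b ∈ N ∧ π ⟨b, hb⟩ = κ := by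
      intro κ hκ
      obtain ⟨b, hb, rfl⟩ := Subgroup.mem_map.mp hκ
      rw [Subgroup.mem_subgroupOf] at hb
      exact ⟨b, b.2, hb.1, rfl⟩
    have hK : K ≠ ⊥ := by
      intro h
      apply hnot
      intro b hb
      have h1 : π ⟨b, hb.2⟩ ∈ K :=
        Subgroup.mem_map_of_mem π (Subgroup.mem_subgroupOf.mpr ⟨hb.1, hb.2⟩)
      rw [h, Subgroup.mem_bot] at h1
      exact (hπ1 _).mp h1
    have hcop : (Nat.card K).Coprime p := by
      have h1 : Nat.card K = S₁.relIndex (N ⊓ L₁) := by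
        have := Subgroup.relIndex_ker ((N ⊓ L₁).subgroupOf L₁) π
        rw [QuotientGroup.ker_mk', Subgroup.relIndex_subgroupOf inf_le_right] at this
        exact this.symm
      have h2 : S₁.relIndex (N ⊓ L₁) ∣ S₁.relIndex N := by
        rw [← Subgroup.relIndex_mul_relIndex S₁ (N ⊓ L₁) N (le_inf hS₁N hS₁L) inf_le_left]
        exact dvd_mul_right _ _
      rw [h1]
      exact ((Nat.Prime.coprime_iff_not_dvd hp.out).mpr (fun h => hS₁syl (h.trans h2))).symm
    have hnorm : ∀ (e : G) (he : e ∈ L₁), ∀ κ ∈ K, π ⟨e, he⟩ * κ * (π ⟨e, he⟩)⁻¹ ∈ K := by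
      intro e he κ hκ
      obtain ⟨b, hb, hbN, rfl⟩ := hKmem κ hκ
      rw [← map_inv, ← map_mul, ← map_mul]
      apply Subgroup.mem_map_of_mem π
      rw [Subgroup.mem_subgroupOf]
      exact ⟨hN.conj_mem b hbN e, L₁.mul_mem (L₁.mul_mem he hb) (L₁.inv_mem he)⟩
    have he₁'L := hPL he₁'P
    have he₂'L := hPL he₂'P
    have hcommΓ : π ⟨e₁', he₁'L⟩ * π ⟨e₂', he₂'L⟩ = π ⟨e₂', he₂'L⟩ * π ⟨e₁', he₁'L⟩ := by
      rw [← map_mul, ← map_mul, QuotientGroup.mk'_apply, QuotientGroup.mk'_apply, QuotientGroup.eq,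
        Subgroup.mem_subgroupOf]
      refine ⟨(P' : Subgroup G).mul_mem ((P' : Subgroup G).inv_mem
        ((P' : Subgroup G).mul_mem he₁'P he₂'P)) ((P' : Subgroup G).mul_mem he₂'P he₁'P), ?_⟩
      have h1 : ((e₁' * e₂' : G) : G ⧸ N) = ((e₂' * e₁' : G) : G ⧸ N) := by
        rw [QuotientGroup.mk_mul, QuotientGroup.mk_mul, he₁', he₂']
        exact congrArg Subtype.val hcomm
      exact QuotientGroup.eq.mp h1
    have hpowΓ : ∀ (e' : G) (he'P : e' ∈ (P' : Subgroup G)) (e : ↥Cb), (e' : G ⧸ N) = (e : G ⧸ N) →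
        e ^ p = 1 → (π ⟨e', hPL he'P⟩) ^ p = 1 := by
      intro e' he'P e hee hep
      rw [← map_pow, hπ1, Subgroup.coe_pow]
      refine ⟨(P' : Subgroup G).pow_mem he'P p, ?_⟩
      apply (QuotientGroup.eq_one_iff _).mp
      rw [QuotientGroup.mk_pow, hee]
      exact congrArg Subtype.val hep
    obtain ⟨i, j, hij, κ, hκK, hκ1, hκc⟩ := rank_two_fixed hp.out K hK hcop
      (π ⟨e₁', he₁'L⟩) (π ⟨e₂', he₂'L⟩) (hnorm e₁' he₁'L) (hnorm e₂' he₂'L) hcommΓ
      (hpowΓ e₁' he₁'P e₁ he₁' he₁p) (hpowΓ e₂' he₂'P e₂ he₂' he₂p)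
    obtain ⟨b, hbL, hbN, rfl⟩ := hKmem κ hκK
    set x : G := e₁' ^ i * e₂' ^ j with hx
    have hxP : x ∈ (P' : Subgroup G) :=
      (P' : Subgroup G).mul_mem ((P' : Subgroup G).pow_mem he₁'P i) ((P' : Subgroup G).pow_mem he₂'P j)
    have hxL : x ∈ L₁ := hPL hxP
    have hxN : x ∉ N := by
      intro h
      apply hij
      apply hind i j
      apply Subtype.ext
      have h1 : (x : G ⧸ N) = 1 := (QuotientGroup.eq_one_iff x).mpr h
      rw [hx, QuotientGroup.mk_mul, QuotientGroup.mk_pow, QuotientGroup.mk_pow, he₁', he₂'] at h1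
      exact h1
    have hπx : π ⟨x, hxL⟩ = π ⟨e₁', he₁'L⟩ ^ i * π ⟨e₂', he₂'L⟩ ^ j := by
      rw [← map_pow, ← map_pow, ← map_mul]
      rfl
    obtain ⟨c, hc⟩ := hP'p x hxP
    obtain ⟨y, hy⟩ := hcam x hxN b hbN
    have hord : orderOf x = orderOf (x * b) := by
      apply SemiconjBy.orderOf_eq y
      show y * x = x * b * y
      rw [← hy]; group
    have hxb : (x * b) ^ (p ^ c) = 1 := by
      have := orderOf_dvd_of_pow_eq_one hc
      rw [hord] at this
      exact orderOf_dvd_iff_pow_eq_one.mp this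
    have h1 : (π ⟨x, hxL⟩ * π ⟨b, hbL⟩) ^ (p ^ c) = 1 := by
      rw [← map_mul, ← map_pow, hπ1]
      have : ((⟨x, hxL⟩ * ⟨b, hbL⟩ : ↥L₁) ^ (p ^ c) : ↥L₁) = 1 := by
        apply Subtype.ext
        exact hxb
      rw [this]
      exact S₁.one_mem
    have h2 : Commute (π ⟨x, hxL⟩) (π ⟨b, hbL⟩) := by
      rw [hπx]; exact hκc
    have h3 : (π ⟨x, hxL⟩) ^ (p ^ c) = 1 := by
      rw [← map_pow, hπ1]
      have : ((⟨x, hxL⟩ : ↥L₁) ^ (p ^ c) : ↥L₁) = 1 := by
        apply Subtype.ext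
        exact hc
      rw [this]
      exact S₁.one_mem
    rw [h2.mul_pow, h3, one_mul] at h1
    have h4 : orderOf (π ⟨b, hbL⟩) ∣ p ^ c := orderOf_dvd_of_pow_eq_one h1
    have h5 : orderOf (π ⟨b, hbL⟩) ∣ Nat.card K := Subgroup.orderOf_dvd_natCard K hκK
    have h6 : orderOf (π ⟨b, hbL⟩) ∣ 1 := by
      have := Nat.dvd_gcd h5 h4
      rwa [Nat.Coprime.pow_right c hcop] at this
    exact hκ1 (orderOf_eq_one_iff.mp (Nat.dvd_one.mp h6))

end Main

end Cfsg.Agent.H77.Camina
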