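import Mathlib
import Cfsg.Agent.H91.JRDefs
import Cfsg.Agent.S0803

/-!
# helper77: piece MOD8 of S3206 (helper91's project)

If the Sylow 2-subgroups of `G` are abelian and `G` contains a copy of `PSL₂(q)`, `q` odd, then
`q ≡ 3, 5 (mod 8)`: otherwise `PSL₂(q)` contains `S₄`, which has a non-abelian 2-subgroup.
-/

set_option autoImplicit false

namespace Cfsg.Agent.H77.JR

open Equiv

/-- the central involution of a dihedral subgroup of `S₄`. -/
def zS4 : Perm (Fin 4) := swap 0 1 * swap 2 3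

/-- an element of the dihedral subgroup. -/
def aS4 : Perm (Fin 4) := swap 0 1

/-- another element of the dihedral subgroup. -/
def bS4 : Perm (Fin 4) := swap 0 2 * swap 1 3

theorem aS4_comm : aS4 * zS4 = zS4 * aS4 := by decide

theorem bS4_comm : bS4 * zS4 = zS4 * bS4 := by decide

theorem abS4_ne : aS4 * bS4 ≠ bS4 * aS4 := by decide

theorem card_centS4 : Fintype.card {g : Perm (Fin 4) // g * zS4 = zS4 * g} = 8 := by decide

theorem mod8.{u, v} : Cfsg.Agent.H91.JR.Mod8Stmt.{u, v} := by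
  intro G _ _ hab F _ _ hodd f hf
  classical
  by_contra hcon
  have hq : Fintype.card F ^ 2 % 16 = 1 := by
    obtain ⟨m, hm⟩ := hodd
    have h8 : Fintype.card F % 8 = 1 ∨ Fintype.card F % 8 = 7 := by omega
    have h16 : Fintype.card F % 16 = 1 ∨ Fintype.card F % 16 = 7 ∨ Fintype.card F % 16 = 9
        ∨ Fintype.card F % 16 = 15 := by omega
    rw [Nat.pow_mod]
    rcases h16 with h | h | h | h <;> rw [h]
  obtain ⟨H, ⟨e⟩⟩ := (Cfsg.Agent.S0803.result (F := F) rfl).mpr hq
  -- the embedding of `S₄` in `G`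
  let ψ : Perm (Fin 4) →* G := f.comp (H.subtype.comp e.symm.toMonoidHom)
  have hψ : Function.Injective ψ := by
    intro x y hxy
    have h1 : (H.subtype (e.symm x)) = H.subtype (e.symm y) := hf hxy
    exact e.symm.injective (Subtype.ext h1)
  -- the dihedral subgroup
  let D : Subgroup (Perm (Fin 4)) := Subgroup.centralizer {zS4}
  have hmemD : ∀ g : Perm (Fin 4), g ∈ D ↔ g * zS4 = zS4 * g := by
    intro g
    rw [Subgroup.mem_centralizer_singleton_iff]
  have hcardD : Nat.card D = 2 ^ 3 := by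
    have e1 : Nat.card D = Nat.card {g : Perm (Fin 4) // g * zS4 = zS4 * g} :=
      Nat.card_congr (Equiv.subtypeEquivRight hmemD)
    rw [e1, Nat.card_eq_fintype_card, card_centS4]
    norm_num
  have hpD : IsPGroup 2 D := IsPGroup.of_card hcardD
  have hpI : IsPGroup 2 (D.map ψ) := hpD.map ψ
  obtain ⟨S, hS⟩ := hpI.exists_le_sylow
  have ha : ψ aS4 ∈ S := hS (Subgroup.mem_map_of_mem ψ ((hmemD aS4).mpr aS4_comm))
  have hb : ψ bS4 ∈ S := hS (Subgroup.mem_map_of_mem ψ ((hmemD bS4).mpr bS4_comm))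
  have hc := hab S _ ha _ hb
  rw [← map_mul, ← map_mul] at hc
  exact abS4_ne (hψ hc)

end Cfsg.Agent.H77.JR
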