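import Mathlib
import Cfsg.Agent.H98.PSLkDefs
import Cfsg.Agent.H36.GLkPoly1
import Cfsg.Agent.H28.GLkPoly2
import Cfsg.Agent.H28.SLkPoly

/-!
# S2480-INV (helper77, for helper98): the `ζ`-invariant configurations are at most
`cfgCount q n (n / orderOf ζ)` (resp. `cfgB q (n - j) (j + 1) (n / orderOf ζ)`) in number

A monic polynomial with non-zero constant coefficient that is invariant under
`scaleRoots ζ` is `expand m` of its contraction, `m = orderOf ζ`; contraction maps the invariant
configurations injectively into the configurations of total degree `n / m`.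
-/

set_option autoImplicit false

namespace Cfsg.Agent.H77.PSLk

open Polynomial DirectSum
open Cfsg.Agent.H98.GLk Cfsg.Agent.H98.SLk

theorem expand_contract_of_dvd {F : Type*} [Field F] {m : ℕ} (hm : 0 < m) (f : F[X])
    (h : ∀ i, f.coeff i ≠ 0 → m ∣ i) : expand F m (contract m f) = f := by
  ext n
  rw [coeff_expand hm, coeff_contract hm.ne']
  split_ifs with hd
  · rw [Nat.div_mul_cancel hd]
  · by_contra hne
    exact hd (h n (Ne.symm hne))

/-- A monic polynomial with non-zero constant coefficient invariant under `scaleRoots ζ` is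
the expansion of its contraction by `orderOf ζ`. -/
theorem inv_facts {F : Type*} [Field F] [Fintype F] (ζ : Fˣ) (g : F[X]) (hmon : g.Monic)
    (h0 : g.coeff 0 ≠ 0) (hinv : g.scaleRoots (ζ : F) = g) :
    expand F (orderOf ζ) (contract (orderOf ζ) g) = g ∧
    (contract (orderOf ζ) g).Monic ∧ (contract (orderOf ζ) g).coeff 0 ≠ 0 ∧
    g.natDegree = (contract (orderOf ζ) g).natDegree * orderOf ζ := by
  have hm : 0 < orderOf ζ := orderOf_pos ζ
  have hco : ∀ i, g.coeff i ≠ 0 → orderOf ζ ∣ g.natDegree - i := by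
    intro i hi
    have h1 := congrArg (fun p : F[X] => p.coeff i) hinv
    simp only [coeff_scaleRoots] at h1
    have h2 : (ζ : F) ^ (g.natDegree - i) = 1 := by
      have h3 : g.coeff i * ((ζ : F) ^ (g.natDegree - i) - 1) = 0 := by
        rw [mul_sub, h1, mul_one, sub_self]
      rcases mul_eq_zero.1 h3 with h4 | h4
      · exact absurd h4 hi
      · exact sub_eq_zero.1 h4
    apply orderOf_dvd_of_pow_eq_one
    apply Units.ext
    rw [Units.val_pow_eq_pow_val, h2, Units.val_one]
  have hD : orderOf ζ ∣ g.natDegree := by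
    have := hco 0 h0
    simpa using this
  have hdvd : ∀ i, g.coeff i ≠ 0 → orderOf ζ ∣ i := by
    intro i hi
    have hle : i ≤ g.natDegree := le_natDegree_of_ne_zero hi
    have h1 := hco i hi
    have h2 : i = g.natDegree - (g.natDegree - i) := by omega
    rw [h2]
    exact Nat.dvd_sub hD h1
  have hexp := expand_contract_of_dvd hm g hdvd
  refine ⟨hexp, ?_, ?_, ?_⟩
  · rw [← monic_expand_iff hm, hexp]
    exact hmon
  · rw [coeff_contract hm.ne', zero_mul]
    exact h0
  · conv_lhs => rw [← hexp]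
    rw [natDegree_expand]

/-- **S2480-INV, part 1.** -/
theorem confInv_ncard_le {F : Type*} [Field F] [Fintype F] (n : ℕ) (ζ : Fˣ) (hζ : ζ ^ n = 1) :
    {g | g ∈ Conf F n n ∧ sc ζ g = g}.ncard ≤ cfgCount (Fintype.card F) n (n / orderOf ζ) := by
  classical
  have hm : 0 < orderOf ζ := orderOf_pos ζ
  have hc : ∀ m : ℕ, Nat.card {g : F[X] // g.Monic ∧ g.natDegree = m ∧ g.coeff 0 ≠ 0} =
      cm (Fintype.card F) m := fun m => Cfsg.Agent.H36.GLk.card_monic_coeff_zero_ne m
  obtain ⟨hfin, hle⟩ := Cfsg.Agent.H28.GLk.conf_finite_ncard_le hc n (n / orderOf ζ)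
  refine le_trans ?_ hle
  have hfacts : ∀ g : Fin n → F[X], g ∈ {g | g ∈ Conf F n n ∧ sc ζ g = g} → ∀ e : Fin n,
      expand F (orderOf ζ) (contract (orderOf ζ) (g e)) = g e ∧
      (contract (orderOf ζ) (g e)).Monic ∧ (contract (orderOf ζ) (g e)).coeff 0 ≠ 0 ∧
      (g e).natDegree = (contract (orderOf ζ) (g e)).natDegree * orderOf ζ := by
    rintro g ⟨⟨hg1, _⟩, hsc⟩ e
    exact inv_facts ζ (g e) (hg1 e).1 (hg1 e).2 (by
      have := congrFun hsc e
      rwa [sc_apply] at this)
  refine Set.ncard_le_ncard_of_injOn (fun g i => contract (orderOf ζ) (g i)) ?_ ?_ hfin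
  · intro g hg
    have hf := hfacts g hg
    obtain ⟨⟨hg1, hg2⟩, hsc⟩ := hg
    refine ⟨fun e => ⟨(hf e).2.1, (hf e).2.2.1⟩, ?_⟩
    show ∑ e : Fin n, (e.val + 1) * (contract (orderOf ζ) (g e)).natDegree = n / orderOf ζ
    symm
    apply Nat.div_eq_of_eq_mul_left hm
    refine hg2.symm.trans ?_
    rw [Finset.sum_mul]
    apply Finset.sum_congr rfl
    intro e _
    rw [mul_assoc, ← (hf e).2.2.2]
  · intro g hg g' hg' hgg
    funext e
    have h1 := congrFun hgg e
    simp only at h1
    rw [← (hfacts g hg e).1, ← (hfacts g' hg' e).1, h1]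

/-- **S2480-INV, part 2.** -/
theorem confFromInv_ncard_le {F : Type*} [Field F] [Fintype F] (n j : ℕ) (ζ : Fˣ)
    (hζ : ζ ^ n = 1) :
    {g | g ∈ ConfFrom F n j ∧ sc ζ g = g}.ncard ≤
      cfgB (Fintype.card F) (n - j) (j + 1) (n / orderOf ζ) := by
  classical
  have hm : 0 < orderOf ζ := orderOf_pos ζ
  obtain ⟨hfin, hle⟩ := Cfsg.Agent.H28.SLk.confB_finite_ncard_le (F := F) (n - j) (j + 1)
    (n / orderOf ζ) (by omega)
  refine le_trans ?_ hle
  have hφ : ∀ i : Fin (n - j), j + i.val < n := fun i => by have := i.2; omega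
  have hfacts : ∀ g : Fin n → F[X], g ∈ {g | g ∈ ConfFrom F n j ∧ sc ζ g = g} → ∀ e : Fin n,
      expand F (orderOf ζ) (contract (orderOf ζ) (g e)) = g e ∧
      (contract (orderOf ζ) (g e)).Monic ∧ (contract (orderOf ζ) (g e)).coeff 0 ≠ 0 ∧
      (g e).natDegree = (contract (orderOf ζ) (g e)).natDegree * orderOf ζ := by
    rintro g ⟨⟨⟨hg1, _⟩, _⟩, hsc⟩ e
    exact inv_facts ζ (g e) (hg1 e).1 (hg1 e).2 (by
      have := congrFun hsc e
      rwa [sc_apply] at this)
  let ρ : (Fin n → F[X]) → (Fin (n - j) → F[X]) :=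
    fun g i => contract (orderOf ζ) (g ⟨j + i.val, hφ i⟩)
  refine Set.ncard_le_ncard_of_injOn ρ ?_ ?_ hfin
  · intro g hg
    have hf := hfacts g hg
    obtain ⟨⟨⟨hg1, hg2⟩, hg3⟩, hsc⟩ := hg
    refine ⟨fun i => ⟨(hf _).2.1, (hf _).2.2.1⟩, ?_⟩
    show ∑ i : Fin (n - j), (j + 1 + i.val) * (ρ g i).natDegree = n / orderOf ζ
    symm
    apply Nat.div_eq_of_eq_mul_left hm
    refine hg2.symm.trans ?_
    rw [Finset.sum_mul]
    let φ : Fin (n - j) ↪ Fin n :=
      ⟨fun i => ⟨j + i.val, hφ i⟩, fun a b hab => by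
        have := congrArg Fin.val hab
        simp only at this
        exact Fin.ext (by omega)⟩
    have h1 : ∑ i : Fin (n - j), (j + 1 + i.val) * (ρ g i).natDegree * orderOf ζ =
        ∑ e ∈ Finset.univ.map φ, (e.val + 1) * (g e).natDegree := by
      rw [Finset.sum_map]
      apply Finset.sum_congr rfl
      intro i _
      show (j + 1 + i.val) * (contract (orderOf ζ) (g ⟨j + i.val, hφ i⟩)).natDegree * orderOf ζ =
        (j + i.val + 1) * (g ⟨j + i.val, hφ i⟩).natDegree
      rw [mul_assoc, ← (hf ⟨j + i.val, hφ i⟩).2.2.2]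
      congr 1
      omega
    rw [h1]
    symm
    apply Finset.sum_subset (Finset.subset_univ _)
    intro e _ he
    have hej : e.val < j := by
      by_contra hcon
      apply he
      rw [Finset.mem_map]
      refine ⟨⟨e.val - j, by have := e.2; omega⟩, Finset.mem_univ _, ?_⟩
      apply Fin.ext
      show j + (e.val - j) = e.val
      omega
    rw [hg3 e hej, natDegree_one, mul_zero]
  · intro g hg g' hg' hgg
    funext e
    by_cases hej : e.val < j
    · rw [hg.1.2 e hej, hg'.1.2 e hej]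
    · have h1 := congrFun hgg ⟨e.val - j, by have := e.2; omega⟩
      have h2 : (⟨j + (e.val - j), hφ ⟨e.val - j, by have := e.2; omega⟩⟩ : Fin n) = e :=
        Fin.ext (by show j + (e.val - j) = e.val; omega)
      have h3 : ρ g ⟨e.val - j, by have := e.2; omega⟩ = contract (orderOf ζ) (g e) := by
        show contract (orderOf ζ) (g ⟨j + (e.val - j), _⟩) = contract (orderOf ζ) (g e)
        rw [h2]
      have h4 : ρ g' ⟨e.val - j, by have := e.2; omega⟩ = contract (orderOf ζ) (g' e) := by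
        show contract (orderOf ζ) (g' ⟨j + (e.val - j), _⟩) = contract (orderOf ζ) (g' e)
        rw [h2]
      rw [← (hfacts g hg e).1, ← (hfacts g' hg' e).1, ← h3, ← h4, h1]

example {F : Type*} [Field F] [Fintype F] (n : ℕ) (ζ : Fˣ) (hζ : ζ ^ n = 1) :
    {g | g ∈ Conf F n n ∧ sc ζ g = g}.ncard ≤ cfgCount (Fintype.card F) n (n / orderOf ζ) :=
  confInv_ncard_le n ζ hζ

example {F : Type*} [Field F] [Fintype F] (n j : ℕ) (ζ : Fˣ)
    (hζ : ζ ^ n = 1) :
    {g | g ∈ ConfFrom F n j ∧ sc ζ g = g}.ncard ≤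
      cfgB (Fintype.card F) (n - j) (j + 1) (n / orderOf ζ) :=
  confFromInv_ncard_le n j ζ hζ

end Cfsg.Agent.H77.PSLk
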