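import Mathlib
import Cfsg.Agent.H88.SUnC

/-!
helper77: central elements of the unitary group `UG n φ` are scalar, for all `n ≥ 2`
(piece S2546-CEN for helper88; same proof as `H88.Un.center_scalar`, which assumes `4 ≤ n`).
-/

set_option autoImplicit false

namespace Cfsg.Agent.H77.StU

open Matrix Cfsg.Agent.H88.Un

theorem ug_center_scalar {n : ℕ} {K : Type*} [Field K] [Fintype K] {φ : K →+* K} [Invol φ]
    (hn : 2 ≤ n) (hG : Good φ) (z : UG n φ) (hz : z ∈ Subgroup.center (UG n φ)) :
    ∃ d : K, z.1.1 = Matrix.diagonal (fun _ => d) := by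
  obtain ⟨ε, hε0, hε⟩ := hG.ex_eps
  obtain ⟨θ, hθ⟩ := hG.ex_tr
  have hcomm : ∀ y : UG n φ, z * y = y * z := fun y => (Subgroup.mem_center_iff.1 hz y).symm
  have hcol : ∀ i : Fin n, i ≠ i.rev → ∀ k, k ≠ i → z.1.1 k i = 0 := by
    intro i hi k hk
    have h := comm_xl hi ε hε z (hcomm _) k i.rev
    rw [if_pos rfl, if_neg hk] at h
    exact (mul_eq_zero.1 h).resolve_right hε0
  have hrow : ∀ i : Fin n, i ≠ i.rev → ∀ l, l ≠ i → z.1.1 i l = 0 := by
    intro i hi l hl
    have hi' : i.rev ≠ i.rev.rev := by rw [Fin.rev_rev]; exact hi.symm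
    have h := comm_xl hi' ε hε z (hcomm _) i.rev l
    rw [Fin.rev_rev, if_neg hl, if_pos rfl] at h
    exact (mul_eq_zero.1 h.symm).resolve_left hε0
  have hoff : ∀ k l : Fin n, k ≠ l → z.1.1 k l = 0 := by
    intro k l hkl
    by_cases hl : l = l.rev
    · have hk : k ≠ k.rev := fun e => hkl (mid_unique e.symm hl.symm)
      exact hrow k hk l (Ne.symm hkl)
    · exact hcol l hl k hkl
  have hdiag : ∀ i j : Fin n, i ≠ i.rev → j ≠ j.rev → z.1.1 i i = z.1.1 j j := by
    intro i j hi hj
    by_cases hij : i = j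
    · rw [hij]
    by_cases hj' : j = i.rev
    · have h := comm_xl hi ε hε z (hcomm _) i i.rev
      rw [if_pos rfl, if_pos rfl] at h
      rw [hj']
      have h2 : (z.1.1 i i - z.1.1 i.rev i.rev) * ε = 0 := by linear_combination h
      exact sub_eq_zero.1 ((mul_eq_zero.1 h2).resolve_right hε0)
    · have hi' : i ≠ j.rev := by
        intro e
        apply hj'
        rw [e, Fin.rev_rev]
      have h := comm_xs hij hi hj 1 z (hcomm _) i j
      rw [if_pos rfl, if_neg hj', if_pos rfl, if_neg hi'] at h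
      linear_combination h
  let i0 : Fin n := ⟨0, by omega⟩
  have hi0 : i0 ≠ i0.rev := by
    intro e
    have := congrArg Fin.val e
    rw [rev_val] at this
    simp only [i0] at this
    omega
  refine ⟨z.1.1 i0 i0, ?_⟩
  ext k l
  rw [Matrix.diagonal_apply]
  by_cases hkl : k = l
  · rw [if_pos hkl, ← hkl]
    by_cases hk : k = k.rev
    · have hk0 : i0 ≠ k := fun e => hi0 (by rw [e]; exact hk)
      have hk0' : k ≠ i0.rev := mid_ne_rev hk.symm hk0
      have h := comm_xb hk.symm hk0 1 (-θ) (xb_one_param hθ) z (hcomm _) i0 k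
      rw [if_pos rfl, if_neg hk0', if_neg hk0', if_pos rfl, if_neg hk0, if_pos rfl,
        hoff i0.rev k (Ne.symm hk0')] at h
      linear_combination -h
    · exact hdiag k i0 hk hi0
  · rw [if_neg hkl]
    exact hoff k l hkl

example {n : ℕ} {K : Type*} [Field K] [Fintype K] {φ : K →+* K} [Invol φ] (hn : 2 ≤ n) (hG : Good φ) (z : UG n φ) (hz : z ∈ Subgroup.center (UG n φ)) : ∃ d : K, z.1.1 = Matrix.diagonal (fun _ => d) :=
  ug_center_scalar hn hG z hz

end Cfsg.Agent.H77.StU
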