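import Mathlib
import Cfsg.Agent.H88.SUnB
import Cfsg.Agent.H78.StSL1

/-!
helper77: rank one relation of the `SU_3` node on the apartment (piece S2546-R1B for helper88).
-/

set_option autoImplicit false

namespace Cfsg.Agent.H77.StU

open Matrix Cfsg.Agent.H88.Un Cfsg.Agent.H78.StSL

/-- If `g u = v` then `g⁻¹ v = u`. -/
theorem inv_mulVec_of {n : ℕ} {K : Type*} [Field K] (g : SpecialLinearGroup (Fin n) K)
    (v u : Fin n → K) (h : g.1 *ᵥ u = v) : (g⁻¹).1 *ᵥ v = u := by
  rw [← h, mulVec_mulVec]
  have e1 : (g⁻¹ * g).1 = 1 := by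
    rw [inv_mul_cancel]
    rfl
  have e : (g⁻¹).1 * g.1 = 1 := e1
  rw [e, one_mulVec]

/-- The inverse of `xb` acting on a vector. -/
theorem xb_inv_mulVec {n : ℕ} {K : Type*} [Field K] [Fintype K] {φ : K →+* K} [Invol φ]
    {p m : Fin n} (hm : m.rev = m) (hp : p ≠ m) (a d : K) (h : d + φ d + a * φ a = 0)
    (v : Fin n → K) (c : Fin n) :
    ((((xb hm hp a d h : UG n φ).1)⁻¹).1 *ᵥ v) c =
      if c = p then v p - a * v m + φ d * v p.rev
      else if c = m then v m + φ a * v p.rev else v c := by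
  have hpp : p ≠ p.rev := ne_rev_of_ne_mid hm hp
  have hmp : m ≠ p.rev := mid_ne_rev hm hp
  have e : (xb hm hp a d h : UG n φ).1 =
      xE p m hp a * xE m p.rev hmp (-φ a) * xE p p.rev hpp (d + a * φ a) := rfl
  rw [e, _root_.mul_inv_rev, _root_.mul_inv_rev, xE_inv, xE_inv, xE_inv]
  have e2 : (xE p p.rev hpp (-(d + a * φ a)) * (xE m p.rev hmp (- -φ a) * xE p m hp (-a))).1 *ᵥ v
      = (xE p p.rev hpp (-(d + a * φ a))).1 *ᵥ ((xE m p.rev hmp (- -φ a)).1 *ᵥ
        ((xE p m hp (-a)).1 *ᵥ v)) := by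
    rw [mulVec_mulVec, mulVec_mulVec, Matrix.mul_assoc]
    rfl
  rw [e2]
  simp only [xE_mulVec]
  by_cases h1 : c = p
  · rw [h1]
    simp only [if_true, hp, hpp.symm, hmp.symm, if_false]
    linear_combination (-(v p.rev)) * h
  · by_cases h2 : c = m
    · rw [h2]
      simp only [hp.symm, if_true, if_false, hmp.symm, hpp.symm]
      ring
    · simp only [h1, h2, if_false]

theorem r1b_hprime {K : Type*} [Field K] (b fb d fd a fa : K) (hb : b ≠ 0) (hfb : fb ≠ 0)
    (hd : d ≠ 0) (hfd : fd ≠ 0) (h : d + fd + a * fa = 0) :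
    b * fb / d + fb * b / fd + (-(b ^ 2 * a) / (fb * fd)) * (-(fb ^ 2 * fa) / (b * d)) = 0 := by
  field_simp
  linear_combination (b * fb) * h

theorem r1b_p_fwd {K : Type*} [Field K] (b fb fd a : K) (x y z : K) (hb : b ≠ 0)
    (hfb : fb ≠ 0) (hfd : fd ≠ 0) :
    x - (-(b ^ 2 * a) / (fb * fd)) * y + (fb * b / fd) * z =
      (b / fd) * (fb * z - a * (-(b / fb) * y) + fd * (x / b)) := by
  field_simp
  ring

theorem r1b_m_fwd {K : Type*} [Field K] (b fb d fd a fa : K) (x y z : K) (hb : b ≠ 0)
    (hfb : fb ≠ 0) (hd : d ≠ 0) (hfd : fd ≠ 0) :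
    y + (-(fb ^ 2 * fa) / (b * d)) * z =
      (fb * fd / (b * d)) * (-(b / fb) * y + fa * (x / b))
      - (fa * fb / (b * d)) * (fb * z - a * (-(b / fb) * y) + fd * (x / b))
      + (y / d) * (d + fd + a * fa) := by
  field_simp
  ring

theorem r1b_m_bwd {K : Type*} [Field K] (b fb d fd a fa : K) (x y z : K) (hb : b ≠ 0)
    (hfb : fb ≠ 0) (hd : d ≠ 0) (hfd : fd ≠ 0) :
    -(b / fb) * y + fa * (x / b) =
      (b * d / (fb * fd)) * (y + (-(fb ^ 2 * fa) / (b * d)) * z)
      + (fa / b) * (x - (-(b ^ 2 * a) / (fb * fd)) * y + (fb * b / fd) * z)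
      - (b / (fb * fd)) * (d + fd + a * fa) * y := by
  field_simp
  ring

theorem rank1_su3 {n : ℕ} {K : Type*} [Field K] [Fintype K] {φ : K →+* K} [Invol φ] {p m : Fin n} (hm : m.rev = m) (hp : p ≠ m) (N : UG n φ) (b : K) (hb : b ≠ 0) (hN : ∀ (v : Fin n → K) (c : Fin n), (N.1.1 *ᵥ v) c = if c = p then b * v p.rev else if c = m then -(φ b / b) * v m else if c = p.rev then (1 / φ b) * v p else v c) (a d : K) (h : d + φ d + a * φ a = 0) (hd : d ≠ 0) : ∃ (a' d' : K) (h' : d' + φ d' + a' * φ a' = 0), ∀ w : Equiv.Perm (Fin n), w.symm p < w.symm m → w.symm m < w.symm p.rev → (N * xb hm hp a d h).1 • (apt (Equiv.swap p p.rev * w) : Flg n K) = (xb hm hp a' d' h').1 • apt (Equiv.swap p p.rev * w) := by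
  have hφ0 : ∀ x : K, x ≠ 0 → φ x ≠ 0 := by
    intro x hx e
    apply hx
    have e2 := congrArg φ e
    rwa [Invol.invol, map_zero] at e2
  have hφb : φ b ≠ 0 := hφ0 b hb
  have hφd : φ d ≠ 0 := hφ0 d hd
  have hpp : p ≠ p.rev := ne_rev_of_ne_mid hm hp
  have hmp : m ≠ p.rev := mid_ne_rev hm hp
  have hd' : φ (b * φ b / d) = φ b * b / φ d := by
    simp only [map_div₀, map_mul, Invol.invol]
  have ha' : φ (-(b ^ 2 * a) / (φ b * φ d)) = -(φ b ^ 2 * φ a) / (b * d) := by
    simp only [map_div₀, map_mul, map_neg, map_pow, Invol.invol]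
  have h' : b * φ b / d + φ (b * φ b / d) +
      (-(b ^ 2 * a) / (φ b * φ d)) * φ (-(b ^ 2 * a) / (φ b * φ d)) = 0 := by
    rw [hd', ha']
    exact r1b_hprime b (φ b) d (φ d) a (φ a) hb hφb hd hφd h
  refine ⟨-(b ^ 2 * a) / (φ b * φ d), b * φ b / d, h', ?_⟩
  intro w hw1 hw2
  have hNinv : ∀ v : Fin n → K, (N.1⁻¹).1 *ᵥ v = fun c => if c = p then φ b * v p.rev
      else if c = m then -(b / φ b) * v m else if c = p.rev then v p / b else v c := by
    intro v
    apply inv_mulVec_of
    funext c
    rw [hN]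
    by_cases h1 : c = p
    · rw [h1]
      simp only [if_true, hpp.symm, hmp.symm, if_false]
      field_simp
    · by_cases h2 : c = m
      · rw [h2]
        simp only [hp.symm, if_true, if_false]
        field_simp
      · by_cases h3 : c = p.rev
        · rw [h3]
          simp only [hpp.symm, hmp.symm, if_true, if_false]
          field_simp
        · simp only [h1, h2, h3, if_false]
  apply Flg.ext'
  intro l v
  rw [mem_smul, mem_smul, mem_apt, mem_apt]
  have hL : (((N * xb hm hp a d h : UG n φ).1)⁻¹).1 *ᵥ v =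
      (((xb hm hp a d h : UG n φ).1)⁻¹).1 *ᵥ ((N.1⁻¹).1 *ᵥ v) := by
    rw [mulVec_mulVec]
    have e : ((N * xb hm hp a d h : UG n φ).1)⁻¹ = ((xb hm hp a d h : UG n φ).1)⁻¹ * N.1⁻¹ := by
      rw [← _root_.mul_inv_rev]
      rfl
    rw [e]
    rfl
  rw [hL, hNinv]
  simp only [xb_inv_mulVec, symm_swap_mul]
  have hsp : Equiv.swap p p.rev p = p.rev := Equiv.swap_apply_left _ _
  have hsr : Equiv.swap p p.rev p.rev = p := Equiv.swap_apply_right _ _
  have hsm : Equiv.swap p p.rev m = m := Equiv.swap_apply_of_ne_of_ne hp.symm hmp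
  constructor
  · intro H c hc
    by_cases h1 : c = p
    · rw [h1] at hc ⊢
      rw [hsp] at hc
      have H1 := H p (by rw [hsp]; exact hc)
      simp only [if_true, hpp.symm, hmp.symm, hp.symm, hp, if_false,
        hd', ha'] at H1 ⊢
      have key := r1b_p_fwd b (φ b) (φ d) a (v p) (v m) (v p.rev) hb hφb hφd
      linear_combination key + (b / φ d) * H1
    · by_cases h2 : c = m
      · rw [h2] at hc ⊢
        rw [hsm] at hc
        have H1 := H m (by rw [hsm]; exact hc)
        have H2 := H p (by rw [hsp]; exact lt_trans hc hw2)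
        simp only [if_true, hpp.symm, hmp.symm, hp.symm, hp, if_false,
          hd', ha'] at H1 H2 ⊢
        have key := r1b_m_fwd b (φ b) d (φ d) a (φ a) (v p) (v m) (v p.rev) hb hφb hd hφd
        linear_combination key + (φ b * φ d / (b * d)) * H1 - (φ a * φ b / (b * d)) * H2 +
          (v m / d) * h
      · by_cases h3 : c = p.rev
        · rw [h3] at hc ⊢
          rw [hsr] at hc
          have H1 := H p.rev (by rw [hsr]; exact hc)
          have H2 := H m (by rw [hsm]; exact lt_trans hc hw1)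
          have H3 := H p (by rw [hsp]; exact lt_trans hc (lt_trans hw1 hw2))
          simp only [if_true, hpp.symm, hmp.symm, hp.symm, hp, if_false,
            hd', ha'] at H1 H2 H3 ⊢
          have e1 : v p = 0 := by
            rcases div_eq_zero_iff.1 H1 with e | e
            · exact e
            · exact absurd e hb
          rw [e1] at H2 H3
          have e2 : v m = 0 := by
            have e : (b / φ b) * v m = 0 := by linear_combination -H2
            rcases mul_eq_zero.1 e with e' | e'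
            · exact absurd e' (div_ne_zero hb hφb)
            · exact e'
          rw [e2] at H3
          have e3 : φ b * v p.rev = 0 := by linear_combination H3
          exact (mul_eq_zero.1 e3).resolve_left hφb
        · have H1 := H c hc
          simp only [h1, h2, h3, if_false] at H1 ⊢
          exact H1
  · intro H c hc
    by_cases h1 : c = p
    · rw [h1] at hc ⊢
      rw [hsp] at hc
      have H1 := H p (by rw [hsp]; exact hc)
      simp only [if_true, hpp.symm, hmp.symm, hp.symm, hp, if_false,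
        hd', ha'] at H1 ⊢
      have key := r1b_p_fwd b (φ b) (φ d) a (v p) (v m) (v p.rev) hb hφb hφd
      have e : (b / φ d) * (φ b * v p.rev - a * (-(b / φ b) * v m) + φ d * (v p / b)) = 0 := by
        rw [← key]
        exact H1
      exact (mul_eq_zero.1 e).resolve_left (div_ne_zero hb hφd)
    · by_cases h2 : c = m
      · rw [h2] at hc ⊢
        rw [hsm] at hc
        have H1 := H m (by rw [hsm]; exact hc)
        have H2 := H p (by rw [hsp]; exact lt_trans hc hw2)
        simp only [if_true, hpp.symm, hmp.symm, hp.symm, hp, if_false,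
          hd', ha'] at H1 H2 ⊢
        have key := r1b_m_bwd b (φ b) d (φ d) a (φ a) (v p) (v m) (v p.rev) hb hφb hd hφd
        linear_combination key + (b * d / (φ b * φ d)) * H1 + (φ a / b) * H2 -
          (b / (φ b * φ d)) * v m * h
      · by_cases h3 : c = p.rev
        · rw [h3] at hc ⊢
          rw [hsr] at hc
          have H1 := H p.rev (by rw [hsr]; exact hc)
          have H2 := H m (by rw [hsm]; exact lt_trans hc hw1)
          have H3 := H p (by rw [hsp]; exact lt_trans hc (lt_trans hw1 hw2))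
          simp only [if_true, hpp.symm, hmp.symm, hp.symm, hp, if_false,
            hd', ha'] at H1 H2 H3 ⊢
          rw [H1] at H2 H3
          have e2 : v m = 0 := by linear_combination H2
          rw [e2] at H3
          have e3 : v p = 0 := by linear_combination H3
          rw [e3, zero_div]
        · have H1 := H c hc
          simp only [h1, h2, h3, if_false] at H1 ⊢
          exact H1

example {n : ℕ} {K : Type*} [Field K] [Fintype K] {φ : K →+* K} [Invol φ] {p m : Fin n} (hm : m.rev = m) (hp : p ≠ m) (N : UG n φ) (b : K) (hb : b ≠ 0) (hN : ∀ (v : Fin n → K) (c : Fin n), (N.1.1 *ᵥ v) c = if c = p then b * v p.rev else if c = m then -(φ b / b) * v m else if c = p.rev then (1 / φ b) * v p else v c) (a d : K) (h : d + φ d + a * φ a = 0) (hd : d ≠ 0) : ∃ (a' d' : K) (h' : d' + φ d' + a' * φ a' = 0), ∀ w : Equiv.Perm (Fin n), w.symm p < w.symm m → w.symm m < w.symm p.rev → (N * xb hm hp a d h).1 • (apt (Equiv.swap p p.rev * w) : Flg n K) = (xb hm hp a' d' h').1 • apt (Equiv.swap p p.rev *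 w) :=
  rank1_su3 hm hp N b hb hN a d h hd

end Cfsg.Agent.H77.StU
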